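import Cfsg.Agent.Xs.J

/-! Direct decompositions of Sylow two-subgroups of alternating groups, second part. -/

namespace CF.Xs
open Subgroup Equiv Equiv.Perm MulAction CF.Classical Cfsg

variable {Ω : Type*} [Fintype Ω] [DecidableEq Ω] {S : Sylow 2 (Perm Ω)} {z : Perm Ω}
  (Z : Pairing (S : Subgroup (Perm Ω)) z) {A B : Subgroup (Perm Ω)}
include Z

theorem tau_apply {s : Perm Ω} (hs : s ∈ S) {a j : Ω} (hj : j ∉ orbit (S : Subgroup (Perm Ω)) a)
    {c : Ω} (hc : c ∈ orbit (S : Subgroup (Perm Ω)) a) :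
    (s * (swap a (z a) * swap j (z j)) * s⁻¹) c = swap (s a) (z (s a)) c := by
  rw [← conj_mul, conj_tau Z hs, conj_tau Z hs, Perm.mul_apply,
    swap_apply_of_ne_of_ne (fun h : c = s j => hj ((orbit_inv S a s hs j).1 (h ▸ hc)))
      fun h : c = z (s j) => hj ((orbit_inv S a s hs j).1 ((z_orbit Z).1 (h ▸ hc)))]

theorem swap_of_mv {s : Perm Ω} {a : Ω} (h : Mv z s a) :
    swap (s a) (z (s a)) a = a ∧ swap (s a) (z (s a)) (z a) = z a :=
  ⟨swap_apply_of_ne_of_ne h.1.symm fun e => h.2 (Z.eq_iff.1 e.symm),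
    swap_apply_of_ne_of_ne h.2.symm fun e => h.1 (z.injective e).symm⟩

theorem not_mv_both (hd : IsInternalDirectProduct A B ((S : Subgroup (Perm Ω)) ⊓ alternatingGroup Ω))
    {a j : Ω} (hj : j ∉ orbit (S : Subgroup (Perm Ω)) a) (hj' : z j ≠ j) (h1 : a ∈ Big z A)
    (h2 : a ∈ Big z B) : False := by
  obtain ⟨α, hα, mα⟩ := h1
  obtain ⟨β, hβ, mβ⟩ := h2
  have hza := mα.ne Z (hd.1 hα).1
  have ho := mem_orbit_self (M := (S : Subgroup (Perm Ω))) a
  have hea : (swap a (z a) * swap j (z j)) a = z a := by simpa using tau_apply Z S.1.one_mem hj ho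
  have key : ∀ {A B : Subgroup (Perm Ω)}, IsInternalDirectProduct A B
      ((S : Subgroup (Perm Ω)) ⊓ alternatingGroup Ω) → ∀ α ∈ A, Mv z α a → ∀ β ∈ B, Mv z β a →
      ∀ α₀ ∈ A, ∀ β₀ ∈ B, α₀ * β₀ = swap a (z a) * swap j (z j) → α₀ a = a := by
    intro A B hd α hα mα β hβ mβ α₀ hα₀ β₀ hβ₀ e
    have sα := (hd.1 hα).1
    have sβ := (hd.2.1 hβ).1
    have s₀ := (hd.1 hα₀).1
    have t₀ := (hd.2.1 hβ₀).1
    have c := hd.2.2.1
    have h3 : ¬ Mv z (α * β) a := fun m => by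
      have e1 : α * β * (α₀ * β₀) * (α * β)⁻¹ =
          α * (α₀ * β₀) * α⁻¹ * ((α₀ * β₀) * (β * (α₀ * β₀) * β⁻¹)) := by
        have h4 : α₀ * β₀ * (α₀ * β₀) = 1 := by
          rw [e, (commute_swap_of_ne (fun h : a = j => hj (h ▸ ho))
            (fun h : a = z j => hj ((z_orbit Z).1 (h ▸ ho)))
            (fun h : z a = j => hj (h ▸ (z_orbit Z).2 ho))
            (fun h => hj (z.injective h ▸ ho))).symm.mul_mul_mul_comm]
          simp
        calc _ = α * (β * α₀) * β₀ * β⁻¹ * α⁻¹ := by group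
          _ = α * α₀ * ((β * β₀ * β⁻¹) * α⁻¹) := by rw [← c _ hα₀ _ hβ]; group
          _ = α * α₀ * α⁻¹ * (β₀ * α₀ * (β₀ * α₀)) * (β * β₀ * β⁻¹) := by
            rw [← c _ (A.inv_mem hα) _ (B.mul_mem (B.mul_mem hβ hβ₀) (B.inv_mem hβ)),
              ← c _ hα₀ _ hβ₀, h4]
            group
          _ = α * α₀ * (α⁻¹ * β₀) * (α₀ * β₀) * ((α₀ * β) * β₀ * β⁻¹) := by group
          _ = _ := by rw [c _ (A.inv_mem hα) _ hβ₀, c _ hα₀ _ hβ]; group
      have e2 := congrArg (· a) e1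
      simp only [e] at e2
      rw [tau_apply Z (S.1.mul_mem sα sβ) hj ho, (swap_of_mv Z m).1, Perm.mul_apply,
        Perm.mul_apply _ (β * _ * _), tau_apply Z sβ hj ho, (swap_of_mv Z mβ).1, hea,
        tau_apply Z sα hj ((z_orbit Z).2 ho), (swap_of_mv Z mα).2] at e2
      exact hza e2.symm
    have h4 : ∀ γ ∈ S, γ * (α₀ * β₀) = (α₀ * β₀) * γ → ¬ Mv z γ a := fun γ hγ h m => by
      have := tau_apply Z hγ hj ho
      rw [← e, h, mul_inv_cancel_right, (swap_of_mv Z m).1, e, hea] at this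
      exact hza this
    have h5 := h4 α₀ s₀ (by rw [mul_assoc, ← c _ hα₀ _ hβ₀])
    by_contra h6
    have h7 : α₀ a = z a := by_contra fun h => h5 ⟨h6, h⟩
    have h8 : β₀ a = a := α₀.injective (by rw [← Perm.mul_apply, e, hea, h7])
    have h9 : (α₀ * β₀) (β a) = β a := by
      have := tau_apply Z S.1.one_mem hj ((orbit_inv S a β sβ a).2 ho)
      simp only [one_mul, inv_one, mul_one, Perm.one_apply] at this
      rw [e, this, swap_apply_of_ne_of_ne mβ.1 mβ.2]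
    have h10 : β₀ (β a) = β a := (fix_iff Z t₀ (c _ hα _ hβ₀) (a := β a) (b := a)
      (by_contra fun h => h3 (not_or.1 h))).2 h8
    rw [Perm.mul_apply, h10, ← Perm.mul_apply, c _ hα₀ _ hβ, Perm.mul_apply, h7] at h9
    exact hza (β.injective h9)
  obtain ⟨α₀, hα₀, β₀, hβ₀, e⟩ := idp_mem hd (tau_mem Z hza hj')
  have h3 := key hd α hα mα β hβ mβ α₀ hα₀ β₀ hβ₀ e
  have h4 := key (idp_symm hd) β hβ mβ α hα mα β₀ hβ₀ α₀ hα₀ (hd.2.2.1 _ hα₀ _ hβ₀ ▸ e)
  rw [← e, Perm.mul_apply, h4, h3] at hea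
  exact hza hea.symm

theorem not_dec_of_two (h0 : ∀ a, z a ≠ a → a ∈ Big z S)
    (h2 : ∀ a, ∃ j ∉ orbit (S : Subgroup (Perm Ω)) a, z j ≠ j) :
    ¬ Dec ((S : Subgroup (Perm Ω)) ⊓ alternatingGroup Ω) := by
  rintro ⟨A, B, hA, hB, hd⟩
  have hinv : ∀ {A B : Subgroup (Perm Ω)}, IsInternalDirectProduct A B
      ((S : Subgroup (Perm Ω)) ⊓ alternatingGroup Ω) → ∀ s ∈ S, ∀ a, s a ∈ Big z A ↔ a ∈ Big z A :=
    fun hd => big_inv Z (hd.1.trans inf_le_left) fun _ hg _ ha => idp_conj hd hg ha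
  have k1 : ∀ {A B : Subgroup (Perm Ω)} (hd : IsInternalDirectProduct A B
      ((S : Subgroup (Perm Ω)) ⊓ alternatingGroup Ω)), ∀ β (hβ : β ∈ B), ∀ H : Subgroup (Perm Ω),
      (∀ a, z a ≠ a → ∀ b ∈ orbit (S : Subgroup (Perm Ω)) a, swap a (z a) * swap b (z b) ∈ H) →
      res S _ (hinv hd) ⟨β, (hd.2.1 hβ).1⟩ ∈ H := by
    intro A B hd β hβ H hH
    have h3 : ∀ a ∈ Big z A, ∀ γ ∈ B, γ a = a ∨ γ a = z a := fun a ha γ hγ => by
      obtain ⟨j, hj, hj'⟩ := h2 a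
      exact by_contra fun h => not_mv_both Z hd hj hj' ha ⟨γ, hγ, not_or.1 h⟩
    refine mem_of_inv Z hH (fun a => ?_) h0 fun s hs a ha => ?_
    · by_cases ha : a ∈ Big z A
      · rw [res_in _ _ ha]; exact h3 a ha β hβ
      · exact Or.inl (res_out _ _ ha)
    · have ha' : a ∈ Big z A := by_contra fun h => ha (res_out _ _ h)
      rw [res_in _ _ ha'] at ha
      rw [res_in _ _ ((hinv hd s hs a).2 ha')]
      obtain ⟨g, hg, h4⟩ := exists_even' Z hs ((h3 a ha' β hβ).resolve_left ha ▸ ha)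
      obtain ⟨α, hα, γ, hγ, rfl⟩ := idp_mem hd hg
      refine fun h => ha ((fix_iff Z (hd.2.1 hβ).1 (hd.2.2.1 _ hα _ hβ) (b := s a) ?_).2 h)
      have h5 := h4 a
      rw [Perm.mul_apply] at h5
      rcases h3 a ha' γ hγ with h6 | h6 <;> rw [h6] at h5
      · exact h5
      · rw [Z.comm α (hd.1 hα).1] at h5
        exact h5.symm.imp (fun h => z.injective h) fun h => Z.eq_iff.1 h
  have k2 : ∀ a, a ∉ Big z A → a ∉ Big z B → z a = a := fun a h1 h3 => by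
    by_contra h
    obtain ⟨s, hs, m⟩ := h0 a h
    obtain ⟨g, hg, h4⟩ := exists_even' Z hs h
    obtain ⟨α, hα, β, hβ, rfl⟩ := idp_mem hd hg
    have h5 : α a = a ∨ α a = z a := by_contra fun h => h1 ⟨α, hα, not_or.1 h⟩
    have h6 : β a = a ∨ β a = z a := by_contra fun h => h3 ⟨β, hβ, not_or.1 h⟩
    have h7 : (α * β) a = a ∨ (α * β) a = z a := by
      rcases h5 with h5 | h5 <;> rcases h6 with h6 | h6 <;>
        simp [h5, h6, Z.comm α (hd.1 hα).1, Z.sq]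
    rcases h4 a with h4 | h4 <;> rw [h4] at h7
    · exact h7.elim m.1 m.2
    · exact h7.elim (fun h => m.2 (Z.eq_iff.1 h)) fun h => m.1 (z.injective h)
  have k3 : ∀ {A B : Subgroup (Perm Ω)}, IsInternalDirectProduct A B
      ((S : Subgroup (Perm Ω)) ⊓ alternatingGroup Ω) → (∀ a, a ∉ Big z A → z a = a) →
      (∀ a, a ∉ Big z B) → B = ⊥ := by
    intro A B hd h1 h3
    have hE : ∀ β ∈ B, ∀ a, β a = a ∨ β a = z a := fun β hβ a =>
      by_contra fun h => h3 a ⟨β, hβ, not_or.1 h⟩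
    have hc : ∀ β ∈ B, ∀ γ ∈ B, β * γ = γ * β := fun β hβ γ hγ => Equiv.ext fun a => by
      rcases hE β hβ a with h4 | h4 <;> rcases hE γ hγ a with h5 | h5 <;>
        simp [h4, h5, Z.comm β (hd.2.1 hβ).1, Z.comm γ (hd.2.1 hγ).1]
    refine eq_bot_iff.2 fun β hβ => hd.2.2.2.1 ▸ ⟨?_, hβ⟩
    have h4 := k1 hd β hβ A fun a ha b hb => by
      obtain ⟨j, hj, hj'⟩ := h2 a
      obtain ⟨s, rfl⟩ := hb
      obtain ⟨g, hg, h4⟩ := exists_even Z (res_mem (orbit_inv S a) s) ha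
      have ho := mem_orbit_self (M := (S : Subgroup (Perm Ω))) a
      have h5 : g j = j := by
        rcases h4 with rfl | rfl
        · exact res_out _ _ hj
        · rw [Perm.mul_apply, swap_apply_of_ne_of_ne (fun h : j = a => hj (h ▸ ho))
            (fun h : j = z a => hj (h ▸ (z_orbit Z).2 ho)), res_out _ _ hj]
      have h6 : swap (g a) (z (g a)) = swap (s.1 a) (z (s.1 a)) := by
        rcases h4 with rfl | rfl
        · rw [res_in _ _ ho]
        · rw [Perm.mul_apply, swap_apply_left, res_in _ _ ((z_orbit Z).2 ho), Z.comm _ s.2, Z.sq,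
            swap_comm]
      obtain ⟨α, hα, γ, hγ, rfl⟩ := idp_mem hd hg
      obtain ⟨α₀, hα₀, γ₀, hγ₀, e⟩ := idp_mem hd (tau_mem Z ha hj')
      have h7 : (α₀ * γ₀) * ((α * γ) * (α₀ * γ₀) * (α * γ)⁻¹)⁻¹ = α₀ * (α * α₀ * α⁻¹)⁻¹ := by
        have c := hd.2.2.1
        calc _ = α₀ * (γ₀ * α) * (γ * γ₀⁻¹) * (α₀⁻¹ * γ⁻¹) * α⁻¹ := by group
          _ = _ := by
            rw [← c _ hα _ hγ₀, hc _ hγ _ (B.inv_mem hγ₀), c _ (A.inv_mem hα₀) _ (B.inv_mem hγ)]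
            group
      rw [e, ← conj_mul, conj_tau Z hg.1, conj_tau Z hg.1, h5, h6] at h7
      have h8 : α₀ * (α * α₀ * α⁻¹)⁻¹ ∈ A :=
        A.mul_mem hα₀ (A.inv_mem (A.mul_mem (A.mul_mem hα hα₀) (A.inv_mem hα)))
      rw [← h7] at h8
      change swap a (z a) * swap (s.1 a) (z (s.1 a)) ∈ A
      simpa [mul_assoc] using h8
    suffices h5 : β = res S _ (hinv hd) ⟨β, (hd.2.1 hβ).1⟩ from h5 ▸ h4
    refine Equiv.ext fun a => ?_
    by_cases ha : a ∈ Big z A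
    · rw [res_in _ _ ha]
    · rw [res_out _ _ ha]; exact Z.apply_fixed (Z.comm β (hd.2.1 hβ).1) (h1 a ha)
  by_cases h3 : ∀ a, a ∉ Big z B
  · exact hB (k3 hd (fun a ha => k2 a ha (h3 a)) h3)
  by_cases h4 : ∀ a, a ∉ Big z A
  · exact hA (k3 (idp_symm hd) (fun a ha => k2 a (h4 a) ha) h4)
  push Not at h3 h4
  obtain ⟨b, hb⟩ := h3
  obtain ⟨a, ha⟩ := h4
  have hAB : ∀ a ∈ Big z A, a ∉ Big z B := fun a ha hb =>
    let ⟨_, hj, hj'⟩ := h2 a
    not_mv_both Z hd hj hj' ha hb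
  have hza : z a ≠ a := let ⟨_, hs, m⟩ := ha; m.ne Z (hd.1 hs).1
  have hzb : z b ≠ b := let ⟨_, hs, m⟩ := hb; m.ne Z (hd.2.1 hs).1
  obtain ⟨α, hα, β, hβ, e⟩ := idp_mem hd (tau_mem Z hza hzb)
  have hH := fun (a : Ω) (ha : z a ≠ a) (b : Ω) (hb : b ∈ orbit (S : Subgroup (Perm Ω)) a) =>
    (tau_mem Z ha (show z b ≠ b from by
      obtain ⟨s, rfl⟩ := hb
      exact fun h => ha (s.1.injective ((Z.comm _ s.2 a).trans h)))).2
  have s1 : sign _ = 1 := k1 hd β hβ _ hH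
  have s2 : sign _ = 1 := k1 (idp_symm hd) α hα _ hH
  have s3 : α = res S _ (hinv hd) ⟨α, (hd.1 hα).1⟩ * res S _ (hinv (idp_symm hd)) ⟨α, (hd.1 hα).1⟩ := by
    refine Equiv.ext fun c => ?_
    rw [Perm.mul_apply]
    by_cases hc : c ∈ Big z B
    · rw [res_in _ _ hc, res_out]
      exact fun h => hAB _ h ((hinv (idp_symm hd) α (hd.1 hα).1 c).2 hc)
    · rw [res_out _ _ hc]
      by_cases hc' : c ∈ Big z A
      · rw [res_in _ _ hc']
      · rw [res_out _ _ hc']; exact Z.apply_fixed (Z.comm α (hd.1 hα).1) (k2 c hc' hc)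
  have s4 : res S _ (hinv hd) (⟨α, (hd.1 hα).1⟩ * ⟨β, (hd.2.1 hβ).1⟩) = swap a (z a) := by
    refine Equiv.ext fun c => ?_
    by_cases hc : c ∈ Big z A
    · rw [res_in _ _ hc]
      change (α * β) c = _
      rw [e, Perm.mul_apply, swap_apply_of_ne_of_ne (fun h : c = b => hAB c hc (h ▸ hb))
        fun h : c = z b => hAB c hc (h ▸ (hinv (idp_symm hd) z (z_mem Z) b).2 hb)]
    · rw [res_out _ _ hc, swap_apply_of_ne_of_ne (fun h : c = a => hc (h ▸ ha))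
        fun h : c = z a => hc (h ▸ (hinv hd z (z_mem Z) a).2 ha)]
  have s5 : sign α = 1 := (hd.1 hα).2
  have s6 := congrArg sign s4
  rw [s3, map_mul, s2, mul_one] at s5
  rw [map_mul, map_mul, s1, s5, sign_swap hza.symm] at s6
  exact absurd s6 (by decide)

theorem dec_of_small {x a b : Ω} (hx : x ∉ Big z S) (hx' : z x ≠ x) (ha : a ∈ Big z S)
    (hb : b ∈ Big z S) (hab : b ∉ orbit (S : Subgroup (Perm Ω)) a) :
    Dec ((S : Subgroup (Perm Ω)) ⊓ alternatingGroup Ω) := by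
  set U := orbit (S : Subgroup (Perm Ω)) a with hU
  have hUb : ∀ c ∈ U, c ∈ Big z S := by rintro _ ⟨s, rfl⟩; exact (big_inv' Z _ s.2 a).2 ha
  have hzx : z x ∉ Big z S := fun h => hx ((big_inv' Z z (z_mem Z) x).1 h)
  have hza : z a ≠ a := let ⟨_, hs, m⟩ := ha; m.ne Z hs
  have hzb : z b ≠ b := let ⟨_, hs, m⟩ := hb; m.ne Z hs
  have hτ : ∀ c ∈ Big z S, swap x (z x) c = c := fun c hc =>
    swap_apply_of_ne_of_ne (fun h => hx (h ▸ hc)) fun h => hzx (h ▸ hc)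
  have hsm : ∀ s ∈ S, ∀ c ∉ Big z S, s c = c ∨ s c = z c := fun s hs c hc =>
    by_contra fun h => hc ⟨s, hs, not_or.1 h⟩
  refine ⟨((S : Subgroup (Perm Ω)) ⊓ alternatingGroup Ω) ⊓ fixingSubgroup (Perm Ω) (Big z S \ U),
    ((S : Subgroup (Perm Ω)) ⊓ alternatingGroup Ω) ⊓ fixingSubgroup (Perm Ω) U, fun h => ?_,
    fun h => ?_, inf_le_left, inf_le_left, fun s hs t ht => Equiv.ext fun c => ?_,
    eq_bot_iff.2 fun s hs => eq_one_of_small Z hs.1.1 fun c hc => ?_,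
    le_antisymm (sup_le inf_le_left inf_le_left) fun s hs => ?_⟩
  · have h1 : swap a (z a) * swap x (z x) = 1 := mem_bot.1 (h ▸ ⟨tau_mem Z hza hx',
      (mem_fixingSubgroup_iff _).2 fun c hc => by
        rw [Perm.smul_def, Perm.mul_apply, hτ c hc.1, swap_apply_of_ne_of_ne
          (fun h : c = a => hc.2 (h ▸ mem_orbit_self a))
          fun h : c = z a => hc.2 (h ▸ (z_orbit Z).2 (mem_orbit_self a))]⟩)
    have := congrArg (· a) h1
    simp only [Perm.mul_apply, hτ a ha, swap_apply_left] at this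
    exact hza this
  · have h1 : swap b (z b) * swap x (z x) = 1 := mem_bot.1 (h ▸ ⟨tau_mem Z hzb hx',
      (mem_fixingSubgroup_iff _).2 fun c hc => by
        rw [Perm.smul_def, Perm.mul_apply, hτ c (hUb c hc), swap_apply_of_ne_of_ne
          (fun h : c = b => hab (h ▸ hc)) fun h : c = z b => hab ((z_orbit Z).1 (h ▸ hc))]⟩)
    have := congrArg (· b) h1
    simp only [Perm.mul_apply, hτ b hb, swap_apply_left] at this
    exact hzb this
  · have h1 : ∀ c ∈ Big z S, c ∉ U → s c = c := fun c h1 h2 =>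
      (mem_fixingSubgroup_iff _).1 hs.2 c ⟨h1, h2⟩
    have h2 : ∀ c ∈ U, t c = c := (mem_fixingSubgroup_iff _).1 ht.2
    rw [Perm.mul_apply, Perm.mul_apply]
    by_cases hc : c ∈ U
    · rw [h2 c hc, h2 _ ((orbit_inv S a s hs.1.1 c).2 hc)]
    by_cases hc' : c ∈ Big z S
    · rw [h1 c hc' hc, h1 _ ((big_inv' Z t ht.1.1 c).2 hc') (mt (orbit_inv S a t ht.1.1 c).1 hc)]
    · rcases hsm s hs.1.1 c hc' with h3 | h3 <;> rcases hsm t ht.1.1 c hc' with h4 | h4 <;>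
        simp [h3, h4, Z.comm s hs.1.1, Z.comm t ht.1.1]
  · by_cases h : c ∈ U
    · exact (mem_fixingSubgroup_iff _).1 hs.2.2 c h
    · exact (mem_fixingSubgroup_iff _).1 hs.1.2 c ⟨hc, h⟩
  · obtain ⟨g, hg, h1⟩ := exists_even Z (res_mem (orbit_inv S a) ⟨s, hs.1⟩) hx'
    have h2 : ∀ c ∈ Big z S, g c = res S _ (orbit_inv S a) ⟨s, hs.1⟩ c := fun c hc => by
      rcases h1 with rfl | rfl
      · rfl
      · rw [Perm.mul_apply, hτ c hc]
    rw [← mul_inv_cancel_left g s]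
    refine mul_mem_sup ⟨hg, (mem_fixingSubgroup_iff _).2 fun c hc => ?_⟩
      ⟨((S : Subgroup (Perm Ω)) ⊓ alternatingGroup Ω).mul_mem
        (((S : Subgroup (Perm Ω)) ⊓ alternatingGroup Ω).inv_mem hg) hs,
        (mem_fixingSubgroup_iff _).2 fun c hc => ?_⟩
    · exact (h2 c hc.1).trans (res_out _ _ hc.2)
    · rw [Perm.smul_def, Perm.mul_apply, Perm.inv_eq_iff_eq, h2 c (hUb c hc), res_in _ _ hc]

theorem one_orbit_iff (h4 : 4 ≤ Fintype.card Ω) :
    (Big z S).ncard = 4 * (Fintype.card Ω / 4) ∧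
    ((∀ a, z a ≠ a → a ∈ Big z S) ↔ Fintype.card Ω % 4 < 2) ∧
    ((∀ a ∈ Big z S, ∀ b ∈ Big z S, b ∈ orbit (S : Subgroup (Perm Ω)) a) ↔
      ∃ r, 4 * (Fintype.card Ω / 4) = 2 ^ r) := by
  have h1 := dvd_ncard_of_orbits (H := (S : Subgroup (Perm Ω))) (Big z S) (Set.toFinite _)
    (fun g x hx => (big_inv' Z _ g.2 x).2 hx) 4 fun x hx => four_dvd_orbit Z hx
  have h2 := Set.ncard_add_ncard_compl (Big z S)
  rw [Nat.card_eq_fintype_card] at h2
  have h3 : {a | z a = a}.ncard ≤ 1 := (Set.ncard_le_one (Set.toFinite _)).2 fun a ha b hb =>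
    Z.fix a b ha hb
  have h5 : (∀ a, z a ≠ a → a ∈ Big z S) → (Big z S)ᶜ.ncard ≤ 1 := fun h =>
    (Set.ncard_le_ncard (s := (Big z S)ᶜ) (t := {a | z a = a})
      fun a ha => by_contra fun h' => ha (h a h')).trans h3
  have h6 : ¬ (∀ a, z a ≠ a → a ∈ Big z S) → 2 ≤ (Big z S)ᶜ.ncard ∧ (Big z S)ᶜ.ncard ≤ 3 := by
    intro h
    push Not at h
    obtain ⟨x, hx', hx⟩ := h
    refine ⟨(Set.one_lt_ncard (Set.toFinite _)).2
      ⟨x, hx, z x, fun h => hx ((big_inv' Z z (z_mem Z) x).1 h), hx'.symm⟩, ?_⟩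
    have : (Big z S)ᶜ ⊆ {a | z a = a} ∪ {x, z x} := fun a ha =>
      (em (z a = a)).imp id fun h => small_two Z hx ha hx' h
    have := (Set.ncard_le_ncard this).trans (Set.ncard_union_le _ _)
    rw [Set.ncard_pair hx'.symm] at this
    omega
  have h7 : (Big z S).ncard = 4 * (Fintype.card Ω / 4) := by
    by_cases h : ∀ a, z a ≠ a → a ∈ Big z S
    · have := h5 h; omega
    · have := h6 h; omega
  have hUb : ∀ a ∈ Big z S, orbit (S : Subgroup (Perm Ω)) a ⊆ Big z S := by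
    rintro a ha _ ⟨s, rfl⟩; exact (big_inv' Z _ s.2 a).2 ha
  refine ⟨h7, ⟨fun h => by have := h5 h; omega, fun h => by_contra fun h' => by
    have := h6 h'; omega⟩, fun h => ?_, fun ⟨r, hr⟩ => ?_⟩
  · obtain ⟨a, ha⟩ := (Set.ncard_pos (Set.toFinite (Big z S))).1 (by omega)
    obtain ⟨k, hk⟩ := exists_ncard_orbit_eq_pow S.2 a
    exact ⟨k, by rw [← h7, ← hk, Set.Subset.antisymm (hUb a ha) (h a ha)]⟩
  · obtain ⟨g, hg⟩ := (exists_with_cycleType_iff Ω (m := {2 ^ r})).2 ⟨by simp; omega, by simp; omega⟩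
    have hc : g.IsCycle := card_cycleType_eq_one.1 (by simp [hg])
    have hs : g.support.card = 2 ^ r := by rw [← sum_cycleType, hg]; simp
    obtain ⟨Q, hQ⟩ := (show IsPGroup 2 (zpowers g) from IsPGroup.of_card (n := r) (by
      rw [Nat.card_zpowers, hc.orderOf, hs])).exists_le_sylow
    obtain ⟨c, rfl⟩ := exists_smul_eq (Perm Ω) S Q
    obtain ⟨y, hy, e⟩ := hQ (mem_zpowers _)
    replace e : y = c⁻¹ * g * c⁻¹⁻¹ := by rw [← show c * y * c⁻¹ = g from e]; group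
    have hc' : y.IsCycle := e ▸ hc.conj
    have hs' : y.support.card = 2 ^ r := by rw [e, card_support_conj, hs]
    obtain ⟨a, ha, h8⟩ := hc'
    have h9 : (y.support : Set Ω) ⊆ orbit (S : Subgroup (Perm Ω)) a := fun b hb => by
      obtain ⟨k, hk⟩ := h8 (mem_support.1 hb)
      exact ⟨⟨y ^ k, zpow_mem hy k⟩, hk⟩
    have h10 := Set.ncard_le_ncard h9
    rw [Set.ncard_coe_finset, hs'] at h10
    have h11 : a ∈ Big z S := by
      by_contra h
      have : orbit (S : Subgroup (Perm Ω)) a ⊆ {a, z a} := by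
        rintro _ ⟨s, rfl⟩
        exact by_contra fun h' => h ⟨s, s.2, not_or.1 h'⟩
      have := (Set.ncard_le_ncard this).trans (Set.ncard_insert_le _ _)
      rw [Set.ncard_singleton] at this
      omega
    have h12 := Set.eq_of_subset_of_ncard_le (hUb a h11) (by omega)
    intro b hb d hd
    rw [← h12] at hb hd
    rwa [orbit_eq_iff.2 hb]

theorem dec_iff (h6 : 6 ≤ Fintype.card Ω) : Dec ((S : Subgroup (Perm Ω)) ⊓ alternatingGroup Ω) ↔
    (2 ≤ Fintype.card Ω % 4 ∧ ∀ r, 4 * (Fintype.card Ω / 4) ≠ 2 ^ r) := by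
  obtain ⟨-, h2, h3⟩ := one_orbit_iff Z (by omega)
  by_cases h : ∀ a ∈ Big z S, ∀ b ∈ Big z S, b ∈ orbit (S : Subgroup (Perm Ω)) a
  · exact iff_of_false (not_dec_of_one Z h6 h) fun h' => let ⟨r, hr⟩ := h3.1 h; h'.2 r hr
  have h4 : ∀ r, 4 * (Fintype.card Ω / 4) ≠ 2 ^ r := fun r hr => h (h3.2 ⟨r, hr⟩)
  push Not at h
  obtain ⟨a, ha, b, hb, hab⟩ := h
  by_cases h0 : ∀ a, z a ≠ a → a ∈ Big z S
  · refine iff_of_false (not_dec_of_two Z h0 fun c => ?_) fun h' => by have := h2.1 h0; omega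
    by_cases hc : a ∈ orbit (S : Subgroup (Perm Ω)) c
    · exact ⟨b, orbit_eq_iff.2 hc ▸ hab, let ⟨_, hs, m⟩ := hb; m.ne Z hs⟩
    · exact ⟨a, hc, let ⟨_, hs, m⟩ := ha; m.ne Z hs⟩
  · refine iff_of_true ?_ ⟨by have := mt h2.2 h0; omega, h4⟩
    push Not at h0
    obtain ⟨x, hx', hx⟩ := h0
    exact dec_of_small Z hx hx' ha hb hab

omit Z in
theorem dec_of_four {G : Type*} [Group G] {P : Subgroup G} (h : Nat.card P = 4)
    (h2 : ∀ x ∈ P, x ^ 4 = 1 → x ^ 2 = 1) : Dec P := by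
  have : Finite P := Nat.finite_of_card_ne_zero (by omega)
  have h3 : ∀ x ∈ P, x * x = 1 := fun x hx => (sq x).symm.trans (h2 x hx (by
    rw [← h]; exact congrArg Subtype.val (pow_card_eq_one' (x := (⟨x, hx⟩ : P)))))
  have hz : ∀ x ∈ P, ∀ y ∈ zpowers x, y = 1 ∨ y = x := fun x hx y ⟨k, hk⟩ => by
    rcases Int.even_or_odd' k with ⟨j, rfl | rfl⟩
    · exact Or.inl (by rw [← hk]; simp only; rw [zpow_mul, zpow_two, h3 x hx, one_zpow])
    · exact Or.inr (by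
        rw [← hk]; simp only; rw [zpow_add_one, zpow_mul, zpow_two, h3 x hx, one_zpow, one_mul])
  have hcm : ∀ x ∈ P, ∀ y ∈ P, x * y = y * x := fun x hx y hy => by
    rw [← inv_eq_of_mul_eq_one_right (h3 _ (P.mul_mem hx hy)), mul_inv_rev,
      inv_eq_of_mul_eq_one_right (h3 x hx), inv_eq_of_mul_eq_one_right (h3 y hy)]
  obtain ⟨x, hx, y, hy, w, hw, h4, h5, h6⟩ := (Set.two_lt_ncard (Set.toFinite ((P : Set G) \ {1}))).1
    (by rw [Set.ncard_diff_singleton_of_mem P.one_mem, ← Nat.card_coe_set_eq, SetLike.coe_sort_coe,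
      h]; omega)
  refine ⟨zpowers x, zpowers y, zpowers_ne_bot.2 hx.2, zpowers_ne_bot.2 hy.2, zpowers_le.2 hx.1,
    zpowers_le.2 hy.1, fun a ha b hb => hcm a (zpowers_le.2 hx.1 ha) b (zpowers_le.2 hy.1 hb),
    eq_bot_iff.2 fun a ha => (hz x hx.1 a ha.1).elim id fun h7 => (hz y hy.1 a ha.2).elim id
      fun h8 => absurd (h7.symm.trans h8) h4, ?_⟩
  have hle : zpowers x ⊔ zpowers y ≤ P := sup_le (zpowers_le.2 hx.1) (zpowers_le.2 hy.1)
  refine eq_of_le_of_card_ge hle ?_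
  have h7 := card_dvd_of_le hle
  have : Finite (zpowers x ⊔ zpowers y :) := Finite.of_injective _ (inclusion_injective hle)
  have h8 := (Set.two_lt_ncard (Set.toFinite ((zpowers x ⊔ zpowers y : Subgroup G) : Set G))).2
    ⟨1, one_mem _, x, mem_sup_left (mem_zpowers x), y, mem_sup_right (mem_zpowers y),
      Ne.symm hx.2, Ne.symm hy.2, h4⟩
  rw [← Nat.card_coe_set_eq, SetLike.coe_sort_coe] at h8
  rw [h] at h7 ⊢
  have := Nat.le_of_dvd (by norm_num) h7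
  interval_cases Nat.card (zpowers x ⊔ zpowers y :) <;> omega

end CF.Xs
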