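import Cfsg.Agent.Pgp.A
import Cfsg.Agent.Coprime.Misc
import Cfsg.Agent.BG2.FrobAmb

/-!
# Extraspecial groups acting on elementary abelian groups
-/

namespace CF.Xs

open Subgroup CF.BG CF.BG2 CF.Pgp
open scoped commutatorElement

variable {G : Type*} [Group G] [Finite G] {p r : ℕ} {P V Z : Subgroup G}

/-- `P` is a `p`-group with Frattini subgroup inside the central subgroup `Z` of order `p`. -/
structure Alm (p : ℕ) (P Z : Subgroup G) : Prop where
  hp : p.Prime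
  k : PiGrp {p} P
  card : ♯Z = p
  le : Z ≤ P
  cent : Z ≤ 𝐂 P
  der : ⁅P, P⁆ ≤ Z
  pow : ∀ x ∈ P, x ^ p ∈ Z

omit [Finite G] in
theorem Alm.mono (h : Alm p P Z) {Q : Subgroup G} (l : Q ≤ P) (z : Z ≤ Q) : Alm p Q Z :=
  ⟨h.hp, h.k.le l, h.card, z, h.cent.trans (cent_anti l), (der_mono l).trans h.der,
    fun x hx => h.pow x (l hx)⟩

omit [Finite G] in
theorem Alm.pow_eq (h : Alm p P Z) {u : G} (hu : u ∈ Z) : u ^ p = 1 :=
  orderOf_dvd_iff_pow_eq_one.1 (h.card ▸ orderOf_dvd_card' hu)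

theorem Alm.exists_conj (h : Alm p P Z) {x u : G} (hx : x ∈ P) (nx : x ∉ 𝐂 P) (hu : u ∈ Z) :
    ∃ g ∈ P, g * x * g⁻¹ = u * x := by
  let T : Subgroup G :=
    { carrier := {u | u ∈ Z ∧ ∃ g ∈ P, g * x * g⁻¹ = u * x}
      one_mem' := ⟨Z.one_mem, 1, P.one_mem, by simp⟩
      mul_mem' := by
        rintro a b ⟨ha, g, hg, e⟩ ⟨hb, k, hk, f⟩
        refine ⟨Z.mul_mem ha hb, k * g, P.mul_mem hk hg, ?_⟩
        calc k * g * x * (k * g)⁻¹ = k * (g * x * g⁻¹) * k⁻¹ := by group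
          _ = (k * a) * x * k⁻¹ := by rw [e]; group
          _ = a * (k * x * k⁻¹) := by rw [h.cent ha k hk]; group
          _ = _ := by rw [f]; group
      inv_mem' := by
        rintro a ⟨ha, g, hg, e⟩
        refine ⟨Z.inv_mem ha, g⁻¹, P.inv_mem hg, ?_⟩
        calc g⁻¹ * x * g⁻¹⁻¹ = g⁻¹ * a⁻¹ * (a * x) * g := by group
          _ = (a * g)⁻¹ * g * x := by rw [← e]; group
          _ = _ := by rw [← h.cent ha g hg, mul_inv_rev, inv_mul_cancel_right] }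
  obtain ⟨y, hy, ny⟩ : ∃ y ∈ P, ¬ y * x = x * y := by simpa [mem_cent] using nx
  have h1 : ⁅y, x⁆ ∈ T := ⟨h.der (commutator_mem_commutator hy hx), y, hy, by
    rw [commutatorElement_def]; group⟩
  have h2 := eq_of_prime_of_ne_bot (X := Z) (Y := T) (h.card ▸ h.hp) (fun _ h => h.1)
    (ne_bot_of_mem h1 fun e => ny (commutatorElement_eq_one_iff_mul_comm.1 e))
  exact (h2.ge hu).2

theorem Alm.card_eq (h : Alm p P Z) {x : G} (hx : x ∈ P) (nx : x ∉ 𝐂 P) (e : x ^ p = 1)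
    (n : P ≤ 𝐍 V) (c : (♯P).Coprime (♯V)) (f : V ⊓ 𝐂 Z = ⊥) : ♯V = ♯(V ⊓ 𝐂₁ x) ^ p := by
  classical
  have := Fact.mk h.hp
  have x1 : x ≠ 1 := fun e => nx (e ▸ one_mem _)
  have ox : ♯(zpowers x) = p := by rw [Nat.card_zpowers, orderOf_eq_prime e x1]
  have zc : Z ≤ 𝐂 (zpowers x) := h.cent.trans (cent_anti (zpowers_le.2 hx))
  have hB : Z ⊔ zpowers x ≤ P := sup_le h.le (zpowers_le.2 hx)
  have dec : ∀ a ∈ Z ⊔ zpowers x, ∃ u ∈ Z, ∃ i : ℤ, u * x ^ i = a := fun a ha => by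
    obtain ⟨u, hu, _, ⟨i, rfl⟩, e⟩ := (mem_sup_norm (norm_of_cent zc)).1 ha
    exact ⟨u, hu, i, e⟩
  have cm : ∀ u ∈ Z, ∀ i : ℤ, Commute u (x ^ i) := fun u hu i =>
    (zc hu _ (zpow_mem (mem_zpowers x) i)).symm
  have cB : ♯(Z ⊔ zpowers x) = p ^ (1 + 1) := by
    rw [card_sup_of_inf_bot (Or.inl (norm_of_cent zc)), h.card, ox, pow_succ, pow_one]
    rw [inf_comm]
    exact inf_eq_bot_of_prime_of_not_le (ox ▸ h.hp) fun l => nx (h.cent (l (mem_zpowers x)))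
  have := Fintype.ofFinite (Z ⊔ zpowers x : Subgroup G)
  have h1 := CF.Coprime.prod_card_inf_centralizer_elem (p := p) (Z ⊔ zpowers x) V
    ⟨(((cyc_of_prime (h.card ▸ h.hp)).abel).sup (abel_zpowers x) zc).comm, fun a ha => by
      obtain ⟨u, hu, i, rfl⟩ := dec a ha
      rw [(cm u hu i).mul_pow, h.pow_eq hu, ← zpow_natCast, ← zpow_mul, mul_comm, zpow_mul,
        zpow_natCast, e, one_zpow, one_mul]⟩ cB (hB.trans n) (coprime_mono c hB le_rfl)
  have h2 : ∀ a : (Z ⊔ zpowers x : Subgroup G), ♯(V ⊓ 𝐂₁ (a : G)) =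
      if (a : G) ∈ Z then (if a = 1 then ♯V else 1) else ♯(V ⊓ 𝐂₁ x) := by
    intro a
    split_ifs with h3 h4
    · rw [h4, coe_one, centralizer_eq_top_iff_subset.2 (by simp), inf_top_eq]
    · rw [← cent_zpowers, zpowers_eq_of_prime (h.card ▸ h.hp) h3 fun e => h4 (Subtype.ext e), f]
      exact card_bot
    · obtain ⟨u, hu, i, ea⟩ := dec a a.2
      have h5 : x ^ i ≠ 1 := fun e => h3 (by rw [← ea, e, mul_one]; exact hu)
      obtain ⟨j, hj⟩ := (zpowers_eq_of_prime (ox ▸ h.hp) (zpow_mem (mem_zpowers x) i) h5).ge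
        (mem_zpowers x)
      have h6 : (a : G) ^ j = u ^ j * x := by
        rw [← ea, (cm u hu i).mul_zpow]; exact congrArg _ hj
      have a1 : (a : G) ≠ 1 := fun e => h3 (e ▸ one_mem _)
      have oa : ♯(zpowers (a : G)) = p := by
        rw [Nat.card_zpowers]
        refine orderOf_eq_prime ?_ a1
        rw [← ea, (cm u hu i).mul_pow, h.pow_eq hu, ← zpow_natCast, ← zpow_mul, mul_comm, zpow_mul,
          zpow_natCast, e, one_zpow, one_mul]
      have h7 : zpowers ((a : G) ^ j) = zpowers (a : G) := zpowers_eq_of_prime (oa ▸ h.hp)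
        (zpow_mem (mem_zpowers _) j) fun e => nx (h.cent (by
          rw [h6, mul_eq_one_iff_inv_eq] at e
          exact e ▸ inv_mem (zpow_mem hu j)))
      obtain ⟨g, hg, eg⟩ := h.exists_conj hx nx (zpow_mem hu j)
      rw [← cent_zpowers, ← h7, cent_zpowers, h6, ← eg, ← cj_cent1, ← cj_of_norm (n hg), ← cj_inf,
        card_cj, cj_of_norm (n hg)]
  have h3 : V ⊓ 𝐂 (Z ⊔ zpowers x) = ⊥ := eq_bot_mono f (inf_le_inf_left _ (cent_anti le_sup_left))
  have h4 : (Finset.univ.filter fun a : (Z ⊔ zpowers x : Subgroup G) => (a : G) ∈ Z).card = p := by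
    rw [← h.card, ← Nat.card_congr (subgroupOfEquivOfLe (le_sup_left (b := zpowers x))).toEquiv,
      ← Fintype.card_subtype, ← Nat.card_eq_fintype_card]
    rfl
  have h5 := Finset.card_filter_add_card_filter_not (s := Finset.univ)
    fun a : (Z ⊔ zpowers x : Subgroup G) => (a : G) ∈ Z
  rw [h4, Finset.card_univ, ← Nat.card_eq_fintype_card, cB] at h5
  rw [Finset.prod_congr rfl fun a _ => h2 a, Finset.prod_ite, Finset.prod_ite_eq',
    if_pos (by simp), Finset.prod_const, h3, card_bot, one_pow, mul_one, pow_one] at h1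
  obtain ⟨s, hs⟩ : ∃ s, p = s + 1 := ⟨p - 1, by have := h.hp.pos; omega⟩
  have s0 : s ≠ 0 := by have := h.hp.two_le; omega
  have h6 : (Finset.univ.filter fun a : (Z ⊔ zpowers x : Subgroup G) => ¬ (a : G) ∈ Z).card =
      p * s := by
    have : p ^ (1 + 1) = p + p * s := by rw [hs]; ring
    omega
  rw [h6, pow_mul] at h1
  have h7 : ♯V ^ p = ♯V * ♯V ^ s := by rw [hs, pow_succ']
  exact (Nat.pow_left_injective s0 (Nat.eq_of_mul_eq_mul_left (card_pos' V) (h1.trans h7))).symm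

theorem Alm.step (h : Alm p P Z) {x : G} (hx : x ∈ P) (nx : x ∉ 𝐂 P) :
    (𝐂 P).relIndex P ≤ p * (p * (𝐂 (P ⊓ 𝐂₁ x)).relIndex (P ⊓ 𝐂₁ x)) := by
  obtain ⟨y, hy, ny⟩ : ∃ y ∈ P, ¬ y * x = x * y := by simpa [mem_cent] using nx
  have h1 : ∀ Q ≤ P, ∀ w ∈ P, (𝐂₁ w).relIndex Q ≤ p := fun Q l w hw =>
    h.card ▸ relIndex_cent1_le fun q hq => h.der (commutator_mem_commutator (l hq) hw)
  have l : P ⊓ 𝐂₁ x ⊔ zpowers y ≤ P := sup_le inf_le_left (zpowers_le.2 hy)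
  have h2 : P ⊓ 𝐂₁ x ⊔ zpowers y = P := le_antisymm l fun g hg => by
    obtain ⟨k, hk, e⟩ := (h.mono l ((le_inf h.le (h.cent.trans (cent_le_cent1 hx))).trans
      le_sup_left)).exists_conj (mem_sup_left ⟨hx, self_mem_cent1 x⟩)
      (fun c => ny (c y (mem_sup_right (mem_zpowers y)))) (h.der (commutator_mem_commutator hg hx))
    have h3 : k⁻¹ * g ∈ P ⊓ 𝐂₁ x := ⟨P.mul_mem (P.inv_mem (l hk)) hg, mem_cent1.2 (by
      rw [commutatorElement_def] at e
      calc k⁻¹ * g * x = k⁻¹ * (g * x * g⁻¹ * x⁻¹ * x) * g := by group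
        _ = _ := by rw [← e]; group)⟩
    simpa using mul_mem hk (mem_sup_left h3)
  have h3 : 𝐂₁ y ⊓ 𝐙 (P ⊓ 𝐂₁ x) ≤ 𝐂 P := by
    rw [← h2, cent_sup, cent_zpowers, h2, inf_comm]
    exact inf_le_inf_right _ inf_le_right
  have h4 := relIndex_mul_relIndex _ _ _ (inf_le_left : 𝐙 (P ⊓ 𝐂₁ x) ≤ _)
    (inf_le_left : P ⊓ 𝐂₁ x ≤ P)
  have h5 := relIndex_mul_relIndex _ _ _ (inf_le_right : 𝐂₁ y ⊓ 𝐙 (P ⊓ 𝐂₁ x) ≤ _)
    (inf_le_left.trans (inf_le_left : P ⊓ 𝐂₁ x ≤ P))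
  rw [← h4, inf_relIndex_right, inf_relIndex_left, inf_relIndex_left] at h5
  refine (relIndex_le_of_le_left h3 (relIndex_ne_zero' _ _)).trans (h5.ge.trans ?_)
  rw [mul_comm ((𝐂 _).relIndex _)]
  exact Nat.mul_le_mul (h1 _ (inf_le_left.trans inf_le_left) y hy)
    (Nat.mul_le_mul_right _ (h1 P le_rfl x hx))

theorem Alm.exists_elt (h : Alm p P Z) (i : p ^ 2 < (𝐂 P).relIndex P ∨ (p ≠ 2 ∧ ¬ Abel P)) :
    ∃ x ∈ P, x ∉ 𝐂 P ∧ x ^ p = 1 := by
  by_contra c
  push Not at c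
  have na : ¬ Abel P := fun a => i.elim (fun i => by
    rw [relIndex_eq_one.2 a] at i
    exact absurd i (by have := h.hp.pos; simp; positivity)) fun i => i.2 a
  obtain ⟨x, hx, nx⟩ := SetLike.not_le_iff_exists.1 na
  have hz := zpowers_eq_of_prime (h.card ▸ h.hp) (h.pow x hx) (c x hx nx)
  have key : ∀ y ∈ P, ∃ k : ℤ, (x ^ k) ^ p * y ^ p = 1 := fun y hy => by
    obtain ⟨k, hk⟩ := hz.ge (Z.inv_mem (h.pow y hy))
    refine ⟨k, ?_⟩
    rw [← zpow_natCast, ← zpow_mul, mul_comm k, zpow_mul, zpow_natCast]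
    exact mul_eq_one_iff_eq_inv.2 hk
  by_cases p2 : p = 2
  · have i := i.resolve_right fun i => i.1 p2
    have h1 := h.step hx nx
    have h2 : ¬ Abel (P ⊓ 𝐂₁ x) := fun a => by
      rw [relIndex_eq_one.2 a] at h1
      exact absurd (i.trans_le h1) (by simp [sq])
    obtain ⟨y, hy, ny⟩ := SetLike.not_le_iff_exists.1 h2
    obtain ⟨k, hk⟩ := key y hy.1
    have cm : Commute (x ^ k) y := (Commute.zpow_right (mem_cent1.1 hy.2) k).symm
    refine c _ (P.mul_mem (zpow_mem hx k) hy.1) (fun e => ny fun w hw => ?_) (cm.mul_pow p ▸ hk)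
    have h3 := e w hw.1
    have h4 : Commute w (x ^ k) := Commute.zpow_right (mem_cent1.1 hw.2) k
    rw [← mul_assoc, h4.eq, mul_assoc, mul_assoc] at h3
    exact mul_left_cancel h3
  · obtain ⟨y, hy, ny⟩ : ∃ y ∈ P, ¬ y * x = x * y := by simpa [mem_cent] using nx
    obtain ⟨k, hk⟩ := key y hy
    have d := h.der (commutator_mem_commutator hy (zpow_mem hx k))
    refine c _ (P.mul_mem (zpow_mem hx k) hy) (fun e => ny ?_) ?_
    · have h3 := e x hx
      rw [← mul_assoc, ((Commute.refl x).zpow_right k).eq, mul_assoc, mul_assoc] at h3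
      exact (mul_left_cancel h3).symm
    · rw [mul_pow_prime_class_two h.hp p2 (h.cent d _ (zpow_mem hx k)) (h.cent d _ hy)
        (h.pow_eq d), hk]

theorem Alm.main (hpr : p ≠ r) {n : ℕ} (hmin : ∀ k : ℕ, 1 ≤ k → p ∣ r ^ k - 1 → n ≤ k) (w : ℕ) :
    ∀ P V : Subgroup G, Alm p P Z → p ^ (2 * w) ≤ (𝐂 P).relIndex P → P ≤ 𝐍 V → Abelem r V →
      V ≠ ⊥ → V ⊓ 𝐂 Z = ⊥ → r ^ (n * p ^ w) ≤ ♯V := by
  induction w with
  | zero =>
    intro P V h _ nV a v1 f
    obtain ⟨k, hk⟩ := a.pi.card_pow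
    have hr := a.pi.prime v1
    have k1 : 1 ≤ k := Nat.pos_of_ne_zero fun e => v1 (card_eq_one'.1 (by rw [hk, e, pow_zero]))
    rw [pow_zero, mul_one, hk]
    refine Nat.pow_le_pow_right hr.pos (hmin k k1 ?_)
    rw [← hk, ← h.card]
    exact (reg_of_prime (h.card ▸ h.hp) f).card_dvd (h.le.trans nV)
  | succ w ih =>
    intro P V h i nV a v1 f
    have hr := a.pi.prime v1
    have c : (♯P).Coprime (♯V) := h.k.coprime (a.pi.of_single_ne hpr.symm)
    have na : ¬ Abel P := fun a => by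
      rw [relIndex_eq_one.2 a] at i
      exact absurd i (not_le.2 (Nat.one_lt_pow (by omega) h.hp.one_lt))
    by_cases ex : ∃ x ∈ P, x ∉ 𝐂 P ∧ x ^ p = 1
    · obtain ⟨x, hx, nx, e⟩ := ex
      have h1 := h.card_eq hx nx e nV c f
      have h2 := i.trans (h.step hx nx)
      rw [show p ^ (2 * (w + 1)) = p * (p * p ^ (2 * w)) by ring] at h2
      have h3 := ih (P ⊓ 𝐂₁ x) (V ⊓ 𝐂₁ x)
        (h.mono inf_le_left (le_inf h.le (h.cent.trans (cent_le_cent1 hx))))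
        (Nat.le_of_mul_le_mul_left (Nat.le_of_mul_le_mul_left h2 h.hp.pos) h.hp.pos)
        (norm_inf (inf_le_left.trans nV) (inf_le_right.trans (le_norm_self _))) (a.le inf_le_left)
        (fun e => v1 (card_eq_one'.1 (by rw [h1, e, card_bot, one_pow])))
        (eq_bot_mono f (inf_le_inf_right _ inf_le_left))
      rw [h1, pow_succ, ← mul_assoc, pow_mul]
      exact Nat.pow_le_pow_left h3 p
    · have p2 : p = 2 := by
        by_contra p2
        exact ex (h.exists_elt (Or.inr ⟨p2, na⟩))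
      have w0 : w = 0 := by
        by_contra w0
        exact ex (h.exists_elt (Or.inl ((Nat.pow_lt_pow_right h.hp.one_lt (by omega)).trans_le i)))
      subst p2 w0
      have n1 : n ≤ 1 := hmin 1 le_rfl (by
        have := hr.eq_two_or_odd.resolve_left hpr.symm
        rw [pow_one]; omega)
      obtain ⟨k, hk⟩ := a.pi.card_pow
      have k0 : k ≠ 0 := fun e => v1 (card_eq_one'.1 (by rw [hk, e, pow_zero]))
      have k1 : k ≠ 1 := fun e => by
        rw [e, pow_one] at hk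
        have h1 := (cyc_of_prime (hk ▸ hr)).der_le_cent nV
        rw [eq_of_prime_of_ne_bot (h.card ▸ h.hp) h.der fun e => na (der_eq_bot.1 e)] at h1
        exact v1 (eq_bot_mono f (le_inf le_rfl (cent_symm h1)))
      rw [hk]
      exact Nat.pow_le_pow_right hr.pos (by omega)

end CF.Xs
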