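import Mathlib

/-! Pairs of involutions with a common neighbour for the odd product relation. -/

namespace CF.Xs
open Function Finset

variable {Ω : Type*} [DecidableEq Ω] {s s' : Finset Ω} {x y : Ω → Ω} {a b c d e p q : Ω}

/-- `x` is an involution of `s`. -/
def Iv (s : Finset Ω) (x : Ω → Ω) : Prop := ∀ a ∈ s, x a ∈ s ∧ x (x a) = a

/-- `x z` has no eigenvalue `-1` on `s`. -/
def Od (s : Finset Ω) (x z : Ω → Ω) : Prop :=
  ∀ f : Ω → ℤ, (∀ a ∈ s, f (x a) + f (z a) = 0) → ∀ a ∈ s, f a = 0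

def Gd (s : Finset Ω) (x y : Ω → Ω) : Prop := ∃ z, Iv s z ∧ Od s x z ∧ Od s y z

omit [DecidableEq Ω] in
theorem Gd.symm (h : Gd s x y) : Gd s y x := let ⟨z, h1, h2, h3⟩ := h; ⟨z, h1, h3, h2⟩

theorem gd_agree (hs : ∀ u, u ∈ s ↔ u = b ∨ u = c ∨ u ∈ s') (hb : b ∉ s') (hc : c ∉ s')
    (x1 : x b = c) (x2 : x c = b) (y1 : y b = c) (y2 : y c = b) (h : Gd s' x y) : Gd s x y := by
  obtain ⟨z, h1, h2, h3⟩ := h
  refine ⟨fun u => if u = b then c else if u = c then b else z u, fun u hu => ?_,
    fun f hf => ?_, fun f hf => ?_⟩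
  · have := h1 u; grind (splits := 40)
  · have := h2 f fun u hu => by have := hf u; grind (splits := 40)
    have := hf b; have := hf c; grind (splits := 40)
  · have := h3 f fun u hu => by have := hf u; grind (splits := 40)
    have := hf b; have := hf c; grind (splits := 40)

theorem gd_end (hs : ∀ u, u ∈ s ↔ u = b ∨ u = c ∨ u ∈ s') (hb : b ∉ s') (hc : c ∉ s')
    (hq : q ∈ s') (hbc : b ≠ c) (x1 : x b = c) (x2 : x c = b) (y1 : y b = b) (y2 : y c = q)
    (y3 : y q = c) (h : Gd s' x (update y q q)) : Gd s x y := by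
  obtain ⟨z, h1, h2, h3⟩ := h
  refine ⟨fun u => if u = b then c else if u = c then b else z u, fun u hu => ?_,
    fun f hf => ?_, fun f hf => ?_⟩
  · have := h1 u; grind (splits := 40)
  · have := h2 f fun u hu => by have := hf u; grind (splits := 40)
    have := hf b; have := hf c; grind (splits := 40)
  · have := hf b; have := hf c; have := hf q
    have := h3 f fun u hu => by have := hf u; grind (splits := 40)
    grind (splits := 40)

theorem gd_two (hs : ∀ u, u ∈ s ↔ u = b ∨ u = c ∨ u = d ∨ u = e ∨ u ∈ s') (hb : b ∉ s')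
    (hc : c ∉ s') (hd : d ∉ s') (he : e ∉ s') (hbc : b ≠ c) (hde : d ≠ e) (x1 : x b = c)
    (x2 : x c = b) (x3 : x d = d) (x4 : x e = e) (y1 : y b = b) (y2 : y c = c) (y3 : y d = e)
    (y4 : y e = d) (h : Gd s' x y) : Gd s x y := by
  obtain ⟨z, h1, h2, h3⟩ := h
  refine ⟨fun u => if u = c then d else if u = d then c else if u = b then b else if u = e then e
    else z u, fun u hu => ?_, fun f hf => ?_, fun f hf => ?_⟩
  · have := h1 u; grind (splits := 40)
  · have := h2 f fun u hu => by have := hf u; grind (splits := 40)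
    have := hf b; have := hf c; have := hf d; have := hf e; grind (splits := 40)
  · have := h3 f fun u hu => by have := hf u; grind (splits := 40)
    have := hf b; have := hf c; have := hf d; have := hf e; grind (splits := 40)

theorem gd_long (hs : ∀ u, u ∈ s ↔ u = b ∨ u = c ∨ u = d ∨ u = e ∨ u ∈ s') (hb : b ∉ s')
    (hc : c ∉ s') (hd : d ∉ s') (he : e ∉ s') (hp : p ∈ s') (hq : q ∈ s')
    (hn : [b, c, d, e].Nodup) (hpq : p ≠ q) (x1 : x b = c)
    (x2 : x c = b) (x3 : x d = e) (x4 : x e = d) (y1 : y b = p) (y2 : y c = d) (y3 : y d = c)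
    (y4 : y e = q) (y5 : y p = b) (y6 : y q = e) (h : Gd s' x (update (update y p q) q p)) :
    Gd s x y := by
  obtain ⟨z, h1, h2, h3⟩ := h
  simp only [List.nodup_cons, List.mem_cons, List.not_mem_nil, or_false, not_or] at hn
  refine ⟨fun u => if u = b then c else if u = c then b else if u = d then e else if u = e then d
    else z u, fun u hu => ?_, fun f hf => ?_, fun f hf => ?_⟩
  · have := h1 u; grind (splits := 40)
  · have := h2 f fun u hu => by have := hf u; grind (splits := 40)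
    have := hf b; have := hf c; have := hf d; have := hf e; grind (splits := 40)
  · have := hf b; have := hf c; have := hf d; have := hf e; have := hf p; have := hf q
    have := h3 f fun u hu => by have := hf u; grind (splits := 40)
    grind (splits := 40)

theorem gd_four (hs : ∀ u, u ∈ s ↔ u = a ∨ u = b ∨ u = c ∨ u = d ∨ u ∈ s') (ha : a ∉ s')
    (hb : b ∉ s') (hc : c ∉ s') (hd : d ∉ s') (hp : p ∈ s') (hn : [a, b, c, d].Nodup)
    (x1 : x a = b) (x2 : x b = a) (x3 : x c = d) (x4 : x d = c) (y1 : y a = d) (y2 : y b = c)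
    (y3 : y c = b) (y4 : y d = a) (h : Gd s' x y) : Gd s x y := by
  obtain ⟨z, h1, h2, h3⟩ := h
  simp only [List.nodup_cons, List.mem_cons, List.not_mem_nil, or_false, not_or] at hn
  by_cases hz : z p = p
  · refine ⟨fun u => if u = a then b else if u = b then a else if u = c then p else if u = p then c
      else if u = d then d else z u, fun u hu => ?_, fun f hf => ?_, fun f hf => ?_⟩
    · have := h1 u; grind (splits := 40)
    · have := hf a; have := hf b; have := hf c; have := hf d; have := hf p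
      have := h2 f fun u hu => by have := hf u; grind (splits := 40)
      grind (splits := 40)
    · have := hf a; have := hf b; have := hf c; have := hf d; have := hf p
      have := h3 f fun u hu => by have := hf u; grind (splits := 40)
      grind (splits := 40)
  · obtain ⟨q, hq⟩ : ∃ q, z p = q := ⟨_, rfl⟩
    have := h1 p hp
    refine ⟨fun u => if u = a then p else if u = p then a else if u = c then q else if u = q then c
      else if u = b then d else if u = d then b else z u, fun u hu => ?_, fun f hf => ?_,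
      fun f hf => ?_⟩
    · have := h1 u; grind (splits := 40)
    · have := hf a; have := hf b; have := hf c; have := hf d; have := hf p; have := hf q
      have := h2 f fun u hu => by have := hf u; grind (splits := 40)
      grind (splits := 40)
    · have := hf a; have := hf b; have := hf c; have := hf d; have := hf p; have := hf q
      have := h3 f fun u hu => by have := hf u; grind (splits := 40)
      grind (splits := 40)

theorem gd_eight {g k : Ω}
    (hs : ∀ u, u ∈ s ↔ u = a ∨ u = b ∨ u = c ∨ u = d ∨ u = p ∨ u = q ∨ u = g ∨ u = k)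
    (hn : [a, b, c, d, p, q, g, k].Nodup)
    (x1 : x a = b) (x2 : x b = a) (x3 : x c = d) (x4 : x d = c) (x5 : x p = q) (x6 : x q = p)
    (x7 : x g = k) (x8 : x k = g) (y1 : y b = c) (y2 : y c = b) (y3 : y q = g) (y4 : y g = q)
    (h : (y a = d ∧ y d = a ∧ y p = k ∧ y k = p) ∨ (y a = k ∧ y k = a ∧ y p = d ∧ y d = p)) :
    Gd s x y := by
  simp only [List.nodup_cons, List.mem_cons, List.not_mem_nil, or_false, not_or] at hn
  refine ⟨fun u => if u = a then b else if u = b then a else if u = q then g else if u = g then q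
      else if u = c then p else if u = p then c else if u = d then k else d,
      fun u hu => ?_, fun f hf => ?_, fun f hf => ?_⟩
  · grind (splits := 40)
  · have := hf a; have := hf b; have := hf c; have := hf d; have := hf p; have := hf q
    have := hf g; have := hf k
    grind (splits := 40)
  · have := hf a; have := hf b; have := hf c; have := hf d; have := hf p; have := hf q
    have := hf g; have := hf k
    grind (splits := 40)

/-- `a` lies on a four-cycle. -/
def F4 (x y : Ω → Ω) (a : Ω) : Prop := x a ≠ a ∧ y a ≠ a ∧ x a ≠ y a ∧ y (x a) = x (y a)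

def Bad (s : Finset Ω) (x y : Ω → Ω) : Prop :=
  ∃ a, F4 x y a ∧ ∀ u, u ∈ s ↔ u = a ∨ u = x a ∨ u = y (x a) ∨ u = y a

def Fx (s : Finset Ω) (x : Ω → Ω) : Finset Ω := s.filter fun u => x u = u

theorem mem_Fx {u : Ω} : u ∈ Fx s x ↔ u ∈ s ∧ x u = u := Finset.mem_filter

theorem card_aux {A B A' B' : Finset Ω} (h : A.card = B.card) (t t' : Finset Ω) (ht : t ⊆ A)
    (ht' : t' ⊆ B) (hc : t.card = t'.card) (hA : A' = A \ t) (hB : B' = B \ t') :
    A'.card = B'.card := by
  rw [hA, hB, Finset.card_sdiff_of_subset ht, Finset.card_sdiff_of_subset ht', h, hc]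

omit [DecidableEq Ω] in
theorem Bad.at (h : Bad s x y) (hx : Iv s x) (hy : Iv s y) (hp : p ∈ s) :
    F4 x y p ∧ ∀ u, u ∈ s ↔ u = p ∨ u = x p ∨ u = y (x p) ∨ u = y p := by
  obtain ⟨a, h1, h2⟩ := h
  unfold F4 at *
  have := hx a ((h2 _).2 (by simp)); have := hy a ((h2 _).2 (by simp))
  have := hx (y a) ((h2 _).2 (by simp)); have := hy (x a) ((h2 _).2 (by simp))
  rcases (h2 p).1 hp with rfl | rfl | rfl | rfl <;> exact ⟨by grind, fun u => by rw [h2] <;> grind⟩

set_option maxHeartbeats 2000000 in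
theorem gd_main (s : Finset Ω) : ∀ x y : Ω → Ω, Iv s x → Iv s y → (Fx s x).card = (Fx s y).card →
    ¬ Bad s x y → Gd s x y := by
  induction s using Finset.strongInduction with | _ s ih => ?_
  intro x y hx hy hc hb
  have hss : ∀ (t : Finset Ω) a, a ∈ s → a ∈ t → s \ t ⊂ s := fun t a h1 h2 =>
    ⟨Finset.sdiff_subset, fun h => (Finset.mem_sdiff.1 (h h1)).2 h2⟩
  by_cases h4 : ∃ a ∈ s, F4 x y a
  · obtain ⟨a, ha, h4⟩ := h4
    obtain ⟨b, x1⟩ : ∃ b, x a = b := ⟨_, rfl⟩
    obtain ⟨d, y1⟩ : ∃ d, y a = d := ⟨_, rfl⟩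
    obtain ⟨c, y2⟩ : ∃ c, y b = c := ⟨_, rfl⟩
    have k : b ∈ s ∧ c ∈ s ∧ d ∈ s ∧ x b = a ∧ x c = d ∧ x d = c ∧ y c = b ∧ y d = a ∧
        a ≠ b ∧ a ≠ c ∧ a ≠ d ∧ b ≠ c ∧ b ≠ d ∧ c ≠ d := by
      have := hx a ha; have := hy a ha; have := hx d; have := hy b
      unfold F4 at h4
      grind
    by_cases hb' : Bad (s \ {a, b, c, d}) x y
    · obtain ⟨p, h5, h6⟩ := hb'
      have := h6 p; have := h6 (x p); have := h6 (y p); have := h6 (y (x p))
      have := hx p; have := hx (y p); have := hy p; have := hy (x p)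
      unfold F4 at h5
      refine gd_eight (a := a) (b := b) (c := c) (d := d) (p := p) (q := x p) (g := y (x p))
        (k := y p) (fun u => ?_) ?_ ?_ ?_ ?_ ?_ ?_ ?_ ?_ ?_ ?_ ?_ ?_ ?_ ?_
      · have := h6 u; grind
      · simp only [List.nodup_cons, List.mem_cons, List.not_mem_nil, List.nodup_nil]; grind
      all_goals grind
    · obtain ⟨p, hp⟩ : (s \ {a, b, c, d}).Nonempty := Finset.nonempty_iff_ne_empty.2 fun h =>
        hb ⟨a, h4, fun u => by have := Finset.ext_iff.1 h u; grind⟩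
      refine gd_four (a := a) (b := b) (c := c) (d := d) (fun u => by grind) (by simp) (by simp)
        (by simp) (by simp) hp (by simp; grind) x1 k.2.2.2.1 (by grind) (by grind) y1 y2 (by grind)
        (by grind) (ih _ (hss _ a ha (by simp)) x y (fun u hu => ?_) (fun u hu => ?_) ?_ hb')
      · have := hx u
        simp only [mem_sdiff, mem_insert, mem_singleton] at hu ⊢
        clear ih hss; grind
      · have := hy u
        simp only [mem_sdiff, mem_insert, mem_singleton] at hu ⊢
        clear ih hss; grind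
      · exact card_aux hc ∅ ∅ (by simp) (by simp) rfl
          (by clear ih hss; ext u; simp only [mem_Fx, mem_sdiff, mem_insert, mem_singleton]; grind)
          (by clear ih hss; ext u; simp only [mem_Fx, mem_sdiff, mem_insert, mem_singleton]; grind)
  have nb : ∀ t, ¬ Bad (s \ t) x y := fun t ⟨a, h1, h2⟩ =>
    h4 ⟨a, (Finset.mem_sdiff.1 ((h2 a).2 (Or.inl rfl))).1, h1⟩
  by_cases h5 : ∃ b ∈ s, x b = y b
  · obtain ⟨b, hb, h5⟩ := h5
    have := hx b hb; have := hy b hb
    refine gd_agree (s' := s \ {b, x b}) (b := b) (c := x b) (fun u => by grind) (by simp) (by simp)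
      rfl (by grind) (by grind) (by grind)
      (ih _ (hss _ b hb (by simp)) x y (fun u hu => ?_) (fun u hu => ?_) ?_ (nb _))
    · clear ih hss; have := hx u; grind
    · clear ih hss; have := hy u; grind
    · by_cases h : x b = b
      · exact card_aux hc {b} {b} (singleton_subset_iff.2 (mem_Fx.2 ⟨hb, h⟩))
          (singleton_subset_iff.2 (mem_Fx.2 ⟨hb, h5 ▸ h⟩)) rfl
          (by clear ih hss; ext u; simp only [mem_Fx, mem_sdiff, mem_insert, mem_singleton]; grind)
          (by clear ih hss; ext u; simp only [mem_Fx, mem_sdiff, mem_insert, mem_singleton]; grind)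
      · exact card_aux hc ∅ ∅ (by simp) (by simp) rfl
          (by clear ih hss; ext u; simp only [mem_Fx, mem_sdiff, mem_insert, mem_singleton]; grind)
          (by clear ih hss; ext u; simp only [mem_Fx, mem_sdiff, mem_insert, mem_singleton]; grind)
  push Not at h5
  have r1 : ∀ x y : Ω → Ω, Iv s x → Iv s y → (Fx s x).card = (Fx s y).card → ∀ b ∈ s, y b = b →
      x b ≠ b → y (x b) ≠ x b → Gd s x y := by
    intro x y hx hy hc b hb h1 h2 h3
    have := hx b hb; have := hy (x b)
    have i1 : Iv (s \ {b, x b}) x := fun u hu => by clear ih hss; have := hx u; grind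
    have i2 : Iv (s \ {b, x b}) (update y (y (x b)) (y (x b))) := fun u hu => by
      clear ih hss; have := hy u; grind
    refine gd_end (s' := s \ {b, x b}) (b := b) (c := x b) (q := y (x b)) (fun u => by grind)
      (by simp) (by simp) (by grind) h2.symm rfl (by grind) h1 rfl (by grind)
      (ih _ (hss _ b hb (by simp)) x _ i1 i2 ?_ fun h => ?_)
    · have e1 : Fx (s \ {b, x b}) x = Fx s x := by
        clear ih hss; ext u; simp only [mem_Fx, mem_sdiff, mem_insert, mem_singleton]; grind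
      have e2 : Fx (s \ {b, x b}) (update y (y (x b)) (y (x b))) =
          insert (y (x b)) ((Fx s y).erase b) := by
        clear ih hss; ext u; simp only [mem_Fx, mem_sdiff, mem_insert, mem_singleton]; grind [mem_Fx]
      have : b ∈ Fx s y := mem_Fx.2 ⟨hb, h1⟩
      rw [e1, e2, Finset.card_insert_of_notMem (by grind [mem_Fx]), Finset.card_erase_add_one this, hc]
    · exact (h.at i1 i2 (p := y (x b)) (by clear ih hss; grind)).1.2.1 (update_self ..)
  by_cases h6 : ∃ b ∈ s, y b = b ∧ y (x b) ≠ x b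
  · obtain ⟨b, hb, h1, h2⟩ := h6
    exact r1 x y hx hy hc b hb h1 (h1 ▸ h5 b hb :) h2
  by_cases h7 : ∃ b ∈ s, x b = b ∧ x (y b) ≠ y b
  · obtain ⟨b, hb, h1, h2⟩ := h7
    exact (r1 y x hy hx hc.symm b hb h1 (h1 ▸ (h5 b hb).symm :) h2).symm
  push Not at h6 h7
  by_cases h8 : (Fx s y).Nonempty
  · obtain ⟨d, hd⟩ : (Fx s x).Nonempty := Finset.card_pos.1 (hc ▸ Finset.card_pos.2 h8)
    obtain ⟨b, hb⟩ := h8
    rw [mem_Fx] at hb hd
    have := hx b hb.1; have := hy d hd.1; have := h5 b hb.1; have := h5 d hd.1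
    have := h6 b hb.1 hb.2; have := h7 d hd.1 hd.2
    refine gd_two (s' := s \ {b, x b, d, y d}) (b := b) (c := x b) (d := d) (e := y d)
      (fun u => by grind) (by simp) (by simp) (by simp) (by simp) (by grind) (by grind) rfl (by grind)
      hd.2 (by grind) hb.2 (by grind) rfl (by grind)
      (ih _ (hss _ b hb.1 (by simp)) x y (fun u hu => ?_) (fun u hu => ?_) ?_ (nb _))
    · clear ih hss; have := hx u; grind
    · clear ih hss; have := hy u; grind
    · exact card_aux hc {d, y d} {b, x b} (by grind [mem_Fx]) (by grind [mem_Fx])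
        (by rw [Finset.card_pair (by grind), Finset.card_pair (by grind)])
        (by clear ih hss; ext u; simp only [mem_Fx, mem_sdiff, mem_insert, mem_singleton]; grind [mem_Fx]) (by clear ih hss; ext u; simp only [mem_Fx, mem_sdiff, mem_insert, mem_singleton]; grind [mem_Fx])
  have h9 : ∀ u ∈ s, y u ≠ u := fun u hu h => h8 ⟨u, mem_Fx.2 ⟨hu, h⟩⟩
  have h10 : ∀ u ∈ s, x u ≠ u := fun u hu h =>
    h8 (Finset.card_pos.1 (hc ▸ Finset.card_pos.2 ⟨u, mem_Fx.2 ⟨hu, h⟩⟩))
  rcases s.eq_empty_or_nonempty with rfl | ⟨c, hc'⟩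
  · exact ⟨x, hx, fun _ _ _ h => absurd h (by simp), fun _ _ _ h => absurd h (by simp)⟩
  obtain ⟨b, x2⟩ : ∃ b, x c = b := ⟨_, rfl⟩
  obtain ⟨d, y2⟩ : ∃ d, y c = d := ⟨_, rfl⟩
  obtain ⟨p, y1⟩ : ∃ p, y b = p := ⟨_, rfl⟩
  obtain ⟨e, x3⟩ : ∃ e, x d = e := ⟨_, rfl⟩
  obtain ⟨q, y4⟩ : ∃ q, y e = q := ⟨_, rfl⟩
  have hpe : p ≠ e := fun h => h4 ⟨c, hc', h10 c hc', h9 c hc', h5 c hc', by grind⟩
  have k : b ∈ s ∧ d ∈ s ∧ p ∈ s ∧ e ∈ s ∧ q ∈ s ∧ x b = c ∧ x e = d ∧ y d = c ∧ y p = b ∧ y q = e := by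
    have := hx c; have := hy c; have := hy b; have := hx d; have := hy e
    grind
  have k' : b ≠ c ∧ b ≠ d ∧ b ≠ e ∧ c ≠ d ∧ c ≠ e ∧ d ≠ e ∧ p ≠ q ∧ p ≠ b ∧ p ≠ c ∧ p ≠ d ∧
      q ≠ b ∧ q ≠ c ∧ q ≠ d ∧ q ≠ e := by
    have := h9 b; have := h9 c; have := h9 e; have := h10 c; have := h10 d; have := h5 c
    grind
  clear h4 nb r1 h6 h7 h8 hb
  have i1 : Iv (s \ {b, c, d, e}) x := fun u hu => by clear ih hss; have := hx u; grind
  have i2 : Iv (s \ {b, c, d, e}) (update (update y p q) q p) := fun u hu => by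
    clear ih hss h5 h9 h10 i1; have := hy u (mem_sdiff.1 hu).1
    simp only [mem_sdiff, mem_insert, mem_singleton] at hu ⊢; grind (splits := 30)
  by_cases hb' : Bad (s \ {b, c, d, e}) x (update (update y p q) q p)
  · obtain ⟨h11, h12⟩ := hb'.at i1 i2 (p := p) (by grind)
    unfold F4 at h11
    have k2 : x p ∈ s ∧ x q ∈ s ∧ x (x p) = p ∧ x (x q) = q ∧ y (x p) = x q ∧ y (x q) = x p ∧
        ∀ u, u ∈ s \ {b, c, d, e} ↔ u = p ∨ u = q ∨ u = x p ∨ u = x q := by
      have := hx p; have := hx q; have := hy (x p)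
      have : y (x p) = x q := by grind
      refine ⟨by grind, by grind, by grind, by grind, this, by grind, fun u => ?_⟩
      rw [h12]; grind
    refine gd_eight (a := c) (b := b) (c := p) (d := x p) (p := x q) (q := q) (g := e)
      (k := d) (fun u => ?_) ?_ ?_ ?_ ?_ ?_ ?_ ?_ ?_ ?_ ?_ ?_ ?_ ?_ ?_
    · have := k2.2.2.2.2.2.2 u; grind
    · have := k2.2.2.2.2.2.2 (x p); have := k2.2.2.2.2.2.2 (x q); have := h10 p; have := h10 q
      have := h5 p; have := h9 (x p)
      simp only [List.nodup_cons, List.mem_cons, List.not_mem_nil, List.nodup_nil]; grind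
    all_goals grind
  refine gd_long (s' := s \ {b, c, d, e}) (b := b) (c := c) (d := d) (e := e) (p := p) (q := q)
    (fun u => by grind) (by simp) (by simp) (by simp) (by simp) (by grind) (by grind)
    (by simp; grind) (by grind) (by grind) x2 x3 (by grind) y1 y2 (by grind) y4 (by grind) (by grind)
    (ih _ (hss _ b k.1 (by simp)) x _ i1 i2 ?_ hb')
  exact card_aux hc ∅ ∅ (by simp) (by simp) rfl
          (by clear ih hss; ext u; simp only [mem_Fx, mem_sdiff, mem_insert, mem_singleton]; grind [mem_Fx])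
    (by clear ih hss; ext u; simp only [mem_Fx, mem_sdiff, mem_insert, mem_singleton]; grind [mem_Fx])

omit [DecidableEq Ω] in
theorem odd_orderOf_of_eigen [Fintype Ω] {g : Equiv.Perm Ω}
    (h : ∀ f : Ω → ℤ, (∀ a, f (g a) = - f a) → ∀ a, f a = 0) : Odd (orderOf g) := by
  classical
  have key : ∀ a, ∃ k : ℤ, Odd k ∧ (g ^ k) a = a := fun a => by
    by_contra hk
    push Not at hk
    have h1 : ∀ i j : ℤ, (g ^ (2 * i)) a ≠ (g ^ (2 * j + 1)) a := fun i j e =>
      hk (-(2 * i) + (2 * j + 1)) ⟨j - i, by ring⟩ (by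
        rw [zpow_add, Equiv.Perm.mul_apply, ← e, ← Equiv.Perm.mul_apply, ← zpow_add]; simp)
    have h2 : ∀ u, (∃ i : ℤ, (g ^ (2 * i)) a = g u) ↔ ∃ i : ℤ, (g ^ (2 * i + 1)) a = u := fun u =>
      ⟨fun ⟨i, hi⟩ => ⟨i - 1, g.injective (by
        rw [← hi, ← Equiv.Perm.mul_apply, ← zpow_one_add]; congr 2; ring)⟩, fun ⟨i, hi⟩ =>
        ⟨i + 1, by rw [← hi, ← Equiv.Perm.mul_apply, ← zpow_one_add]; congr 2; ring⟩⟩
    have h3 : ∀ u, (∃ i : ℤ, (g ^ (2 * i + 1)) a = g u) ↔ ∃ i : ℤ, (g ^ (2 * i)) a = u := fun u =>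
      exists_congr fun i => by
        rw [add_comm, zpow_one_add, Equiv.Perm.mul_apply, g.injective.eq_iff]
    have := h (fun u => (if ∃ i : ℤ, (g ^ (2 * i)) a = u then 1 else 0) -
      if ∃ i : ℤ, (g ^ (2 * i + 1)) a = u then 1 else 0) (fun u => by simp only [h2, h3]; ring) a
    rw [if_pos ⟨0, by simp⟩, if_neg fun ⟨j, hj⟩ => h1 0 j (by simpa using hj.symm)] at this
    simp at this
  choose k hk using key
  have h1 : g ^ (∏ a, k a) = 1 := Equiv.ext fun a => by
    obtain ⟨m, hm⟩ := Finset.dvd_prod_of_mem k (Finset.mem_univ a)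
    rw [hm, zpow_mul]
    exact Equiv.Perm.zpow_apply_eq_self_of_apply_eq_self (hk a).2 m
  have h2 : Odd (∏ a, k a) := Finset.prod_induction _ _ (fun _ _ => Odd.mul) odd_one
    fun a _ => (hk a).1
  exact (Int.natAbs_odd.2 h2).of_dvd_nat (Int.natCast_dvd.1 (orderOf_dvd_iff_zpow_eq_one.2 h1))

theorem exists_common [Fintype Ω] (h5 : 5 ≤ Fintype.card Ω) {x y : Equiv.Perm Ω} (hx : x * x = 1)
    (hy : y * y = 1) (hxy : IsConj x y) :
    ∃ z : Equiv.Perm Ω, z * z = 1 ∧ Odd (orderOf (x * z)) ∧ Odd (orderOf (y * z)) := by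
  have iv : ∀ x : Equiv.Perm Ω, x * x = 1 → Iv Finset.univ x := fun x hx a _ =>
    ⟨Finset.mem_univ _, congrArg (· a) hx⟩
  have fx : ∀ x : Equiv.Perm Ω, Fx Finset.univ x = x.supportᶜ := fun x => by ext; simp [mem_Fx]
  obtain ⟨z, h1, h2, h3⟩ := gd_main Finset.univ x y (iv x hx) (iv y hy) (by
    obtain ⟨c, rfl⟩ := isConj_iff.1 hxy
    rw [fx, fx, Finset.card_compl, Finset.card_compl, Equiv.Perm.card_support_conj]) (by
    rintro ⟨a, -, h⟩
    have : (Finset.univ : Finset Ω) = {a, x a, y (x a), y a} := by ext u; simpa using h u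
    have h1 := Finset.card_le_four (a := a) (b := x a) (c := y (x a)) (d := y a)
    rw [← this, Finset.card_univ] at h1
    omega)
  have hz : Involutive z := fun a => (h1 a (Finset.mem_univ a)).2
  have key : ∀ x : Equiv.Perm Ω, Od Finset.univ x z → Odd (orderOf (x * hz.toPerm z)) :=
    fun x h => odd_orderOf_of_eigen fun f hf a => h f (fun b _ => by
      have := hf (z b)
      simp only [Equiv.Perm.mul_apply, Involutive.coe_toPerm, hz b] at this
      omega) a (Finset.mem_univ a)
  exact ⟨hz.toPerm z, Equiv.ext fun a => hz a, key x h2, key y h3⟩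

end CF.Xs
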