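import Cfsg.Agent.Xs.N
import Cfsg.Agent.Perm.SylP
import Cfsg.Agent.Perm.SymAut
import Cfsg.Agent.Perm.PrimeDegree3

/-! Derangements of prime order in transitive actions of alternating groups. -/

namespace CF.Xs
open Equiv Equiv.Perm Finset MulAction

theorem choose_mul_pow_ge {n m : ℕ} (h : m ≤ n) (j : ℕ) (hj : j ≤ m) :
    n ^ j * (n - j).choose (m - j) ≤ m ^ j * n.choose m := by
  induction j with
  | zero => simp
  | succ j ih =>
    obtain ⟨a, rfl⟩ : ∃ a, m = j + 1 + a := Nat.exists_eq_add_of_le hj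
    obtain ⟨b, rfl⟩ := Nat.exists_eq_add_of_le h
    have h1 := ih (by omega)
    rw [show j + 1 + a + b - j = a + b + 1 by omega, show j + 1 + a - j = a + 1 by omega] at h1
    rw [show j + 1 + a + b - (j + 1) = a + b by omega, show j + 1 + a - (j + 1) = a by omega]
    have h2 := Nat.add_one_mul_choose_eq (a + b) a
    have h3 : (j + 1 + a + b) * (a + b).choose a ≤ (j + 1 + a) * (a + b + 1).choose (a + 1) :=
      Nat.le_of_mul_le_mul_right (c := a + 1) (by
        rw [mul_assoc (j + 1 + a), ← h2]; nlinarith [Nat.zero_le (j * b * (a + b).choose a)]) (by omega)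
    calc _ = (j + 1 + a + b) ^ j * ((j + 1 + a + b) * (a + b).choose a) := by ring
      _ ≤ (j + 1 + a) * ((j + 1 + a + b) ^ j * (a + b + 1).choose (a + 1)) := by
        rw [mul_left_comm (j + 1 + a)]; exact Nat.mul_le_mul_left _ h3
      _ ≤ _ := by rw [pow_succ', mul_assoc]; exact Nat.mul_le_mul_left _ h1

theorem pow_lt_choose {n m : ℕ} (h2 : 2 ≤ m) (h : m ^ 2 ≤ n) : n ^ ((m + 1) / 2) < n.choose m := by
  have hn : 0 < n := by nlinarith
  rcases h2.eq_or_lt with rfl | h2
  · exact (pow_one n).trans_lt (CF.Perm.lt_choose le_rfl h)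
  obtain ⟨j, rfl⟩ : ∃ j, m = j + 2 := ⟨m - 2, by omega⟩
  obtain ⟨d, rfl⟩ : ∃ d, n = d + 1 + j := ⟨n - 1 - j, by have : j + 1 ≤ n := (by nlinarith); omega⟩
  have h3 := choose_mul_pow_ge (n := d + 1 + j) (m := j + 2) (by nlinarith) j (by omega)
  rw [Nat.add_sub_cancel, Nat.add_sub_cancel_left] at h3
  have h4 : (d + 1).choose 2 * 2 = (d + 1) * d := by rw [← Nat.add_one_mul_choose_eq, Nat.choose_one_right]
  generalize (d + 1).choose 2 = c, (d + 1 + j).choose (j + 2) = C at *
  have h5 : (d + 1 + j) ^ 3 < c ^ 2 := by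
    obtain ⟨t, ht⟩ : ∃ t, d + 1 + j = 9 + t := ⟨d + 1 + j - 9, by have : 9 ≤ d + 1 + j := (by nlinarith); omega⟩
    have h6 : 2 * (9 + t) + 3 ≤ 3 * d := by nlinarith
    have h7 : (2 * (9 + t) + 3) * (2 * (9 + t) + 6) ≤ 18 * c := by nlinarith
    rw [ht]
    nlinarith [Nat.pow_le_pow_left h7 2, Nat.zero_le (t ^ 3), Nat.zero_le (t ^ 4)]
  have h6 : (d + 1 + j) ^ j * c ^ 2 ≤ C ^ 2 := Nat.le_of_mul_le_mul_left (by
    calc (d + 1 + j) ^ j * ((d + 1 + j) ^ j * c ^ 2) = ((d + 1 + j) ^ j * c) ^ 2 := by ring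
      _ ≤ ((j + 2) ^ 2) ^ j * C ^ 2 :=
        (Nat.pow_le_pow_left h3 2).trans_eq (by rw [mul_pow, ← pow_mul, ← pow_mul, mul_comm j 2])
      _ ≤ _ := Nat.mul_le_mul_right _ (Nat.pow_le_pow_left h j)) (pow_pos hn j)
  refine lt_of_pow_lt_pow_left₀ 2 (Nat.zero_le _) (lt_of_lt_of_le ?_ h6)
  calc _ ≤ (d + 1 + j) ^ (j + 3) := by rw [← pow_mul]; exact Nat.pow_le_pow_right hn (by omega)
    _ < _ := by rw [pow_add]; exact Nat.mul_lt_mul_of_pos_left h5 (pow_pos hn _)

theorem choose_mono_half {n m k : ℕ} (h : m ≤ k) (hk : 2 * k ≤ n) : n.choose m ≤ n.choose k := by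
  induction k, h using Nat.le_induction with
  | base => rfl
  | succ k _ ih => exact (ih (by omega)).trans (Nat.choose_le_succ_of_lt_half_left (by omega))

/-- A weak form of a theorem of Sylvester. -/
theorem lt_or_lt_sq {n k r : ℕ} (hk : 2 * k ≤ n) (hr : 2 ≤ r)
    (h : ∀ s, s.Prime → s ∣ n.choose k → s ≤ r) : k < r ∨ n < r ^ 2 := by
  by_contra h1
  push Not at h1
  have h2 := (pow_lt_choose hr h1.2).trans_le (choose_mono_half h1.1 hk)
  have h0 : n.choose k ≠ 0 := by omega
  have h3 : #(n.choose k).primeFactors ≤ (r + 1) / 2 := by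
    rw [← card_range ((r + 1) / 2)]
    refine card_le_card_of_injOn (fun p => (p - 1) / 2) (fun p hp => ?_) fun p hp q hq e => ?_
    · have := h p (Nat.prime_of_mem_primeFactors hp) (Nat.dvd_of_mem_primeFactors hp)
      simp; omega
    · have hp := Nat.prime_of_mem_primeFactors hp
      have hq := Nat.prime_of_mem_primeFactors hq
      have := hp.eq_two_or_odd; have := hq.eq_two_or_odd; have := hp.two_le; have := hq.two_le
      simp only at e; omega
  have hn : 0 < n := by nlinarith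
  have h4 := prod_le_pow_card (n.choose k).primeFactors (fun p => p ^ (n.choose k).factorization p) n
    fun p _ => Nat.pow_factorization_choose_le hn
  rw [← Nat.support_factorization, ← Finsupp.prod, Nat.factorization_prod_pow_eq_self h0,
    Nat.support_factorization] at h4
  exact absurd (h4.trans (Nat.pow_le_pow_right hn h3)) (by omega)

theorem mod_lt_mod {n k r : ℕ} (hk : k ≤ n) (hr : r.Prime) (hd : r ∣ n.choose k)
    (h : k < r ∨ n < r ^ 2) : n % r < k % r := by
  rcases h with h | h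
  · have h1 := hd.trans (Dvd.intro_left _ (Nat.descFactorial_eq_factorial_mul_choose n k).symm)
    rw [Nat.descFactorial_eq_prod_range] at h1
    obtain ⟨i, hi, h2⟩ := (Nat.Prime.prime hr).exists_mem_finset_dvd h1
    have hi := mem_range.1 hi
    rw [Nat.mod_eq_of_lt h, ← Nat.sub_add_cancel (show i ≤ n by omega), Nat.add_mod,
      Nat.mod_eq_zero_of_dvd h2, zero_add, Nat.mod_mod, Nat.mod_eq_of_lt (by omega)]
    exact hi
  · have h1 := hr.factorization_pos_of_dvd (Nat.choose_pos hk).ne' hd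
    rw [Nat.factorization_choose hr hk (b := 2) (Nat.log_lt_of_lt_pow' two_ne_zero h)] at h1
    obtain ⟨i, hi⟩ := card_pos.1 h1
    obtain ⟨h2, h3⟩ := mem_filter.1 hi
    obtain rfl : i = 1 := by have := mem_Ico.1 h2; omega
    have h4 := Nat.mod_lt k hr.pos
    have h5 := Nat.mod_lt (n - k) hr.pos
    rw [pow_one] at h3
    rw [← Nat.add_sub_cancel' hk, Nat.add_mod, Nat.mod_eq_sub_mod h3, Nat.mod_eq_of_lt (by omega)]
    omega

variable {α : Type*} [Fintype α] [DecidableEq α]

theorem prim_of_big {K : Subgroup (Perm α)} [IsPretransitive K α] {s : ℕ} (hs : s.Prime)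
    (h : Fintype.card α < 2 * s) (hd : s ∣ Nat.card K) : IsPreprimitive K α := by
  have := Fact.mk hs
  obtain ⟨g, hg⟩ := exists_prime_orderOf_dvd_card' s hd
  obtain ⟨a, ha⟩ : ∃ a, g.1 a ≠ a := by
    by_contra h1
    push Not at h1
    rw [show g = 1 from Subtype.ext (Equiv.ext h1), orderOf_one] at hg
    exact hs.one_lt.ne hg
  have h1 : Nat.card (orbit (Subgroup.zpowers g) a) = s := by
    rw [Nat.card_coe_set_eq, ← index_stabilizer]
    refine ((Nat.dvd_prime hs).1 ((Subgroup.index_dvd_card _).trans (by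
      rw [Nat.card_zpowers, hg]))).resolve_left fun h => ha ?_
    exact (Subgroup.index_eq_one.1 h).ge (Subgroup.mem_top ⟨g, Subgroup.mem_zpowers g⟩)
  have := IsPreprimitive.of_prime_card (G := Subgroup.zpowers g) (h1 ▸ hs)
  refine IsPreprimitive.of_card_lt (G := Subgroup.zpowers g) (X := orbit (Subgroup.zpowers g) a)
    (φ := Subtype.val) (f := ⟨Subtype.val, fun _ _ => rfl⟩) ?_
  change _ < 2 * (Set.range Subtype.val).ncard
  rwa [Subtype.range_coe, ← Nat.card_coe_set_eq, h1, Nat.card_eq_fintype_card]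

theorem exists_cyc {s : ℕ} (hs : s.Prime) (h2 : s ≠ 2) {c : ℕ} (h0 : c ≠ 0)
    (h : c * s ≤ Fintype.card α) : ∃ σ : alternatingGroup α, orderOf σ = s ∧
      ∀ g : alternatingGroup α, (g * σ * g⁻¹).1 ^ s = 1 ∧ #(g * σ * g⁻¹).1.support = c * s := by
  have := Fact.mk hs
  obtain ⟨σ, h3, h4⟩ := exists_perm_pow (r := s) h
  refine ⟨⟨σ, CF.Perm.sign_eq_one_of_pow_odd (hs.odd_of_ne_two h2) h3⟩, orderOf_eq_prime
    (Subtype.ext h3) fun e => ?_, fun g => ⟨by simp [conj_pow, h3], by simpa using h4⟩⟩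
  rw [show σ = 1 from congrArg Subtype.val e] at h4
  have := hs.pos
  simp at h4; omega

theorem isCycle_of_pow {s : ℕ} (hs : s.Prime) {σ : Perm α} (h : σ ^ s = 1) (h1 : #σ.support = 1 * s) :
    σ.IsCycle := by
  have := Fact.mk hs
  exact card_cycleType_eq_one.1 (Nat.eq_of_mul_eq_mul_right hs.pos ((card_support_of_pow h).symm.trans h1))

theorem mod_le_of_inv {s : ℕ} (hs : s.Prime) {σ : Perm α} (h : σ ^ s = 1)
    (h1 : #σ.support = Fintype.card α / s * s) {S : Finset α} (hS : ∀ x, σ x ∈ S ↔ x ∈ S) :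
    #S % s ≤ Fintype.card α % s := by
  have := Fact.mk hs
  obtain ⟨c, hc⟩ := dvd_card_of_moved h (S ∩ σ.support) (fun x => by simp [hS])
    fun x hx => mem_support.1 (mem_inter.1 hx).2
  have h2 := card_sdiff_add_card_inter S σ.support
  have h3 : #(S \ σ.support) ≤ #σ.supportᶜ := card_le_card fun x hx => mem_compl.2 (mem_sdiff.1 hx).2
  have h4 := card_add_card_compl σ.support
  have h5 := Nat.div_add_mod' (Fintype.card α) s
  rw [← h2, hc, Nat.add_mul_mod_self_left]
  exact (Nat.mod_le _ _).trans (by omega)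

variable {Ω : Type*} [Finite Ω] [MulAction (alternatingGroup α) Ω]
  [IsPretransitive (alternatingGroup α) Ω] (ω : Ω)

/-- There is a derangement of order `s`. -/
def Der (α Ω : Type*) [Fintype α] [DecidableEq α] [MulAction (alternatingGroup α) Ω] (s : ℕ) : Prop :=
  ∃ σ : alternatingGroup α, orderOf σ = s ∧ ∀ x : Ω, σ • x ≠ x

omit [Finite Ω] in
theorem der_of {s : ℕ} {σ : alternatingGroup α} (h : orderOf σ = s)
    (h1 : ∀ g, g * σ * g⁻¹ ∉ stabilizer (alternatingGroup α) ω) : Der α Ω s :=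
  ⟨σ, h, fun x hx => by
    obtain ⟨g, rfl⟩ := exists_smul_eq (alternatingGroup α) x ω
    exact h1 g (by simp [mul_smul, hx])⟩

omit [IsPretransitive (alternatingGroup α) Ω] in
theorem Der.dvd {s : ℕ} (hs : s.Prime) (h : Der α Ω s) : s ∣ Nat.card Ω := by
  classical
  have := Fact.mk hs
  have := Fintype.ofFinite Ω
  obtain ⟨σ, h1, h2⟩ := h
  simpa using dvd_card_of_moved (σ := toPermHom _ Ω σ) (by rw [← map_pow, ← h1, pow_orderOf_eq_one, map_one])
    univ (by simp) fun x _ => h2 x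

omit [Finite Ω] in
theorem der_of_not_dvd {s : ℕ} (hs : s.Prime) (h : s ∣ Nat.card (alternatingGroup α))
    (h1 : ¬ s ∣ Nat.card (stabilizer (alternatingGroup α) ω)) : Der α Ω s := by
  have := Fact.mk hs
  obtain ⟨σ, h2⟩ := exists_prime_orderOf_dvd_card' s h
  refine der_of ω h2 fun g hg => h1 ?_
  rw [← h2, ← (MulAut.conj g).orderOf_eq σ]
  exact Subgroup.orderOf_dvd_natCard _ hg

omit [Finite Ω] in
include ω in
theorem der_of_big {s : ℕ} (hs : s.Prime) (h : Fintype.card α < 2 * s) (hd : s ∣ Nat.card Ω) :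
    Der α Ω s := by
  have := Fact.mk hs
  have h1 := (stabilizer (alternatingGroup α) ω).card_mul_index
  rw [index_stabilizer_of_transitive] at h1
  refine der_of_not_dvd ω hs (h1 ▸ hd.mul_left _) fun h2 => ?_
  have h3 := (h1 ▸ mul_dvd_mul h2 hd).trans (alternatingGroup α).card_subgroup_dvd_card
  rw [Nat.card_perm, Nat.card_eq_fintype_card, ← sq,
    hs.pow_dvd_iff_le_factorization (Nat.factorial_ne_zero _), CF.Perm.factorization_factorial_eq] at h3
  have h4 : Fintype.card α / s < 2 := (Nat.div_lt_iff_lt_mul hs.pos).2 h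
  interval_cases Fintype.card α / s <;> simp at h3

theorem der_of_trans (h5 : 5 ≤ Fintype.card α) {K : Subgroup (Perm α)} [IsPretransitive K α]
    (hK : ¬ alternatingGroup α ≤ K) (h : ∀ g ∈ stabilizer (alternatingGroup α) ω, g.1 ∈ K) {r : ℕ}
    (hr : r.Prime) (hd : r ∣ Nat.card Ω) (hm : ∀ s, s.Prime → s ∣ Nat.card Ω → s ≤ r) : Der α Ω r := by
  obtain ⟨s, hs, h1, h2⟩ := Nat.exists_prime_lt_and_le_two_mul (Fintype.card α / 2) (by omega)
  by_cases h3 : s ∣ Nat.card K
  · have h4 := prim_of_big hs (by omega) h3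
    have h6 : ∀ s, s.Prime → s ≠ 2 → (s = 3 ∨ s + 3 ≤ Fintype.card α) → Der α Ω s := fun s hs h2 h6 => by
      obtain ⟨σ, h7, h8⟩ := exists_cyc (α := α) hs h2 one_ne_zero (by omega)
      refine der_of ω h7 fun g hg => hK ?_
      have h9 := (h8 g).2
      rcases h6 with rfl | h6
      · exact alternatingGroup_le_of_isPreprimitive_of_isThreeCycle_mem h4
          (card_support_eq_three_iff.1 h9) (h _ hg)
      · exact CF.Perm.alternatingGroup_le_of_prime_cycle K h4 hs h6 (isCycle_of_pow hs (h8 g).1 h9)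
          (by omega) (h _ hg)
    have := hm 3 Nat.prime_three ((h6 3 Nat.prime_three (by omega) (Or.inl rfl)).dvd Nat.prime_three)
    by_cases h7 : r + 3 ≤ Fintype.card α
    · exact h6 r hr (by omega) (Or.inr h7)
    · exact der_of_big ω hr (by omega) hd
  · obtain ⟨σ, h4, -⟩ := exists_cyc (α := α) hs (by omega) one_ne_zero (by omega)
    have := hm s hs ((der_of_not_dvd ω hs (h4 ▸ orderOf_dvd_natCard σ) fun h6 => h3 (h6.trans
      (Subgroup.card_dvd_of_injective (((alternatingGroup α).subtype.comp (Subgroup.subtype _)).codRestrict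
        K fun g => h g g.2) fun a b e => Subtype.ext (Subtype.ext (congrArg (fun x : K => x.1) e))))).dvd hs)
    exact der_of_big ω hr (by omega) hd

omit [Finite Ω] in
theorem der_of_set (h5 : 5 ≤ Fintype.card α) {S : Finset α}
    (h : ∀ g, g ∈ stabilizer (alternatingGroup α) ω ↔ ∀ x, g.1 x ∈ S ↔ x ∈ S) {r : ℕ}
    (hr : r.Prime) (hd : r ∣ Nat.card Ω) (hm : ∀ s, s.Prime → s ∣ Nat.card Ω → s ≤ r) : Der α Ω r := by
  wlog hS : 2 * #S ≤ Fintype.card α generalizing S
  · exact this (S := Sᶜ) (fun g => (h g).trans (forall_congr' fun x => by simp [not_iff_not]))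
      (by have := card_add_card_compl S; omega)
  have := Set.powersetCard.isPretransitive_alternatingGroup (α := α) (n := #S) (by simp; omega)
  have h1 : Nat.card Ω = (Fintype.card α).choose #S := by
    rw [← index_stabilizer_of_transitive (alternatingGroup α) (x := ω), ← Nat.card_eq_fintype_card,
      ← Set.powersetCard.card, ← index_stabilizer_of_transitive (alternatingGroup α)
        (x := (⟨S, (rfl : #S = #S)⟩ : Set.powersetCard α #S))]
    erw [Set.powersetCard.stabilizer_coe]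
    congr 1
    ext g
    rw [h, mem_stabilizer_set]; rfl
  rw [h1] at hd hm
  have h2 := lt_or_lt_sq hS hr.two_le hm
  have h3 := mod_lt_mod (by omega) hr hd h2
  have h4 : r ≤ Fintype.card α := hr.dvd_factorial.1 (hd.trans (Dvd.intro _ (by
    rw [← mul_assoc, Nat.choose_mul_factorial_mul_factorial (show #S ≤ _ by omega)])))
  have h6 := (Nat.div_pos h4 hr.pos).ne'
  by_cases h7 : r = 2
  · subst h7
    obtain ⟨σ, h8, h9⟩ := exists_perm_pow (α := α) (r := 2) (Nat.div_mul_le_self _ _)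
    have h10 : Even (Fintype.card α / 2) := by
      by_contra h10
      rw [show #S = 1 by omega, Nat.choose_one_right] at hm hd
      obtain ⟨s, hs, h11⟩ := Nat.exists_prime_and_dvd (show Fintype.card α / 2 ≠ 1 by omega)
      obtain rfl : s = 2 := le_antisymm (hm s hs (h11.trans (Nat.div_dvd_of_dvd hd))) hs.two_le
      exact h10 (even_iff_two_dvd.2 h11)
    have h11 : sign σ = 1 := by
      rw [sign_of_cycleType, sum_cycleType, h9, Nat.eq_of_mul_eq_mul_right two_pos
        ((card_support_of_pow h8).symm.trans h9)]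
      exact Even.neg_one_pow ((even_two.mul_left _).add h10)
    refine der_of ω (σ := ⟨σ, h11⟩) (orderOf_eq_prime (Subtype.ext h8) fun e => ?_) fun g hg =>
      h3.not_ge (mod_le_of_inv hr (by simp [conj_pow, h8]) (by simpa using h9) ((h _).1 hg))
    rw [show σ = 1 from congrArg Subtype.val e] at h9
    simp at h9; omega
  · obtain ⟨σ, h8, h9⟩ := exists_cyc (α := α) hr h7 h6 (Nat.div_mul_le_self _ _)
    exact der_of ω h8 fun g hg => h3.not_ge (mod_le_of_inv hr (h9 g).1 (h9 g).2 ((h _).1 hg))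

theorem der_six (h6 : Fintype.card α = 6) (h : stabilizer (alternatingGroup α) ω ≠ ⊤) {r : ℕ}
    (hr : r.Prime) (hd : r ∣ Nat.card Ω) (hm : ∀ s, s.Prime → s ∣ Nat.card Ω → s ≤ r) : Der α Ω r := by
  set K := (stabilizer (alternatingGroup α) ω).map (alternatingGroup α).subtype with hK
  by_cases h1 : IsPretransitive K α
  · refine der_of_trans ω (K := K) (by omega) (fun h2 => h (eq_top_iff.2 fun g _ => ?_))
      (fun g hg => ⟨g, hg, rfl⟩) hr hd hm
    obtain ⟨g', h3, h4⟩ := h2 g.2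
    exact Subtype.ext h4 ▸ h3
  by_cases h2 : 3 < r
  · exact der_of_big ω hr (by omega) hd
  obtain ⟨τ, h3, h4⟩ := exists_cyc (α := α) Nat.prime_five (by omega) one_ne_zero (by omega)
  obtain ⟨g, hg⟩ : ∃ g, g * τ * g⁻¹ ∈ stabilizer (alternatingGroup α) ω := by
    by_contra h5
    push Not at h5
    have := hm 5 Nat.prime_five ((der_of ω h3 h5).dvd Nat.prime_five)
    omega
  obtain ⟨σ, h5, h7⟩ := exists_cyc (α := α) Nat.prime_three (by omega) two_ne_zero (by omega)
  suffices H : Der α Ω 3 by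
    rwa [le_antisymm (not_lt.1 h2) (hm 3 Nat.prime_three (H.dvd Nat.prime_three))]
  refine der_of ω h5 fun c hc => h1 ?_
  have h8 := (h7 c).2
  have h9 := (h4 g).2
  obtain ⟨a, ha, h10⟩ := isCycle_of_pow Nat.prime_five (h4 g).1 h9
  generalize c * σ * c⁻¹ = u, g * τ * g⁻¹ = v at *
  have h11 : ∀ x, v.1 x ≠ x → x ∈ orbit K a := fun x hx =>
    let ⟨k, hk⟩ := h10 hx; ⟨⟨v.1 ^ k, v ^ k, zpow_mem hg k, rfl⟩, hk⟩
  refine (isPretransitive_iff_orbit_eq_univ a).2 (Set.eq_univ_of_forall fun x => ?_)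
  by_cases hx : v.1 x = x
  · have h12 : u.1 x ≠ x := mem_support.1 (eq_univ_of_card _ (h8.trans h6.symm) ▸ mem_univ x)
    have h13 : v.1 (u.1 x) ≠ u.1 x := fun e => h12 (card_le_one.1
      (show #v.1.supportᶜ ≤ 1 by rw [card_compl]; omega) _ (by simp [e]) _ (by simp [hx]))
    have h14 := mem_orbit_of_mem_orbit (⟨u.1, u, hc, rfl⟩ : K)⁻¹ (h11 _ h13)
    rwa [show u.1 x = (⟨u.1, u, hc, rfl⟩ : K) • x from rfl, inv_smul_smul] at h14
  · exact h11 x hx

end CF.Xs
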