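import Mathlib

/-! Elements of prime order fixing a uniform partition. -/

namespace CF.Xs
open Equiv Equiv.Perm Finset

variable {α : Type*} [Fintype α] [DecidableEq α] {r : ℕ} [hr : Fact r.Prime]

theorem card_support_of_pow {σ : Perm α} (h : σ ^ r = 1) : #σ.support = σ.cycleType.card * r := by
  rw [← sum_cycleType, cycleType_of_pow_prime_eq_one h]; simp

theorem dvd_card_of_moved {σ : Perm α} (h : σ ^ r = 1) (s : Finset α) (hs : ∀ x, σ x ∈ s ↔ x ∈ s)
    (hm : ∀ x ∈ s, σ x ≠ x) : r ∣ #s := by
  have h1 := card_support_of_pow (σ := σ.subtypePerm hs) (r := r)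
    (by rw [subtypePerm_pow]; ext x; simp [h])
  rw [eq_univ_of_forall (s := support (σ.subtypePerm hs)) fun x => mem_support.2 fun e =>
    hm x x.2 (congrArg Subtype.val e), card_univ, Fintype.card_coe] at h1
  exact ⟨_, h1.trans (mul_comm _ _)⟩

theorem exists_perm_pow {c : ℕ} (h : c * r ≤ Fintype.card α) :
    ∃ σ : Perm α, σ ^ r = 1 ∧ #σ.support = c * r := by
  obtain ⟨σ, hσ⟩ := (exists_with_cycleType_iff α (m := Multiset.replicate c r)).2
    ⟨by simpa using h, fun a ha => Multiset.eq_of_mem_replicate ha ▸ hr.out.two_le⟩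
  exact ⟨σ, pow_prime_eq_one_iff.2 fun c hc => Multiset.eq_of_mem_replicate (hσ ▸ hc), by
    rw [← sum_cycleType, hσ]; simp⟩

theorem isConj_of_pow {σ τ : Perm α} (h1 : σ ^ r = 1) (h2 : τ ^ r = 1)
    (h : #σ.support = #τ.support) : IsConj σ τ := by
  rw [card_support_of_pow h1, card_support_of_pow h2] at h
  rw [isConj_iff_cycleType_eq, cycleType_of_pow_prime_eq_one h1, cycleType_of_pow_prime_eq_one h2,
    Nat.eq_of_mul_eq_mul_right hr.out.pos h]

omit hr in
theorem exists_distrib {β : Type*} [DecidableEq β] (s : Finset β) (d : ℕ) : ∀ c ≤ #s * d,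
    ∃ g : β → ℕ, (∀ j, g j ≤ d) ∧ ∑ j ∈ s, g j = c := by
  induction s using Finset.induction_on with
  | empty => exact fun c hc => ⟨0, by simp, by simpa using (Nat.le_zero.1 (by simpa using hc)).symm⟩
  | insert a s ha ih =>
    intro c hc
    rw [card_insert_of_notMem ha, add_mul] at hc
    obtain ⟨g, h1, h2⟩ := ih (c - d) (by omega)
    refine ⟨Function.update g a (min c d), fun j => ?_, ?_⟩
    · by_cases h : j = a
      · simp [h]
      · simp [h, h1]
    · rw [sum_insert ha, Function.update_self, sum_congr rfl fun j hj =>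
        Function.update_of_ne (fun h : j = a => ha (h ▸ hj)) _ _, h2]
      omega

theorem fixes_iff {a b m : ℕ} (ha : 0 < a) (hc : Fintype.card α = a * b) {σ : Perm α}
    (h : σ ^ r = 1) (hm : #σ.support = m * r) :
    (∃ f : α → Fin b, (∀ j, Nat.card {x // f x = j} = a) ∧ ∃ π : Perm (Fin b), ∀ x, f (σ x) = π (f x)) ↔
      ∃ t s, b = r * t + s ∧ t * a ≤ m ∧ m ≤ t * a + s * (a / r) := by
  constructor
  · rintro ⟨f, h1, π, h2⟩
    replace h1 : ∀ j, #{x | f x = j} = a := fun j => by
      rw [← h1 j, Nat.card_eq_fintype_card, Fintype.card_subtype]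
    have h3 : π ^ r = 1 := Equiv.ext fun j => by
      obtain ⟨x, hx⟩ := card_pos.1 (h1 j ▸ ha)
      have : ∀ k : ℕ, f ((σ ^ k) x) = (π ^ k) (f x) := fun k => by
        induction k with
        | zero => rfl
        | succ k ih => rw [pow_succ', pow_succ', Perm.mul_apply, Perm.mul_apply, h2, ih]
      rw [← (mem_filter.1 hx).2, ← this, h]; rfl
    have h4 := card_support_of_pow h3
    have h5 := card_eq_sum_card_fiberwise (s := σ.support) (t := univ) (f := f) fun _ _ => mem_univ _
    rw [← sum_add_sum_compl π.support, sum_congr rfl (g := fun _ => a) fun j hj => by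
      rw [← h1 j]
      congr 1
      ext x
      simp only [mem_filter, mem_support, mem_univ, true_and, and_iff_right_iff_imp]
      rintro rfl e
      exact mem_support.1 hj (by rw [← h2, e]), sum_const, smul_eq_mul, hm, h4] at h5
    have h6 := sum_le_card_nsmul π.supportᶜ (fun j => #{x ∈ σ.support | f x = j}) (a / r * r)
      fun j hj => by
        obtain ⟨c, hc⟩ := dvd_card_of_moved h {x ∈ σ.support | f x = j} (fun x => by
          simp only [mem_filter, apply_mem_support, h2]
          rw [← notMem_support.1 (mem_compl.1 hj), π.injective.eq_iff, notMem_support.1 (mem_compl.1 hj)])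
          fun x hx => mem_support.1 (mem_filter.1 hx).1
        have h7 : #{x ∈ σ.support | f x = j} ≤ a := h1 j ▸ card_le_card (filter_subset_filter _ (subset_univ _))
        rw [hc, mul_comm] at h7 ⊢
        exact Nat.mul_le_mul_right _ ((Nat.le_div_iff_mul_le hr.out.pos).2 h7)
    have h7 := card_add_card_compl π.support
    rw [Fintype.card_fin, h4] at h7
    refine ⟨π.cycleType.card, #π.supportᶜ, by rw [mul_comm]; exact h7.symm,
      Nat.le_of_mul_le_mul_right ?_ hr.out.pos, Nat.le_of_mul_le_mul_right ?_ hr.out.pos⟩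
    · nlinarith [Nat.zero_le (∑ j ∈ π.supportᶜ, #{x ∈ σ.support | f x = j})]
    · rw [smul_eq_mul] at h6; nlinarith
  · rintro ⟨t, s, h1, h2, h3⟩
    obtain ⟨π, h4, h5⟩ := exists_perm_pow (α := Fin b) (r := r) (c := t) (by simp; nlinarith)
    have h7 := card_add_card_compl π.support
    rw [Fintype.card_fin, h5] at h7
    obtain ⟨g, h8, h9⟩ := exists_distrib π.supportᶜ (a / r) (m - t * a) (by
      rw [show #π.supportᶜ = s by nlinarith]; omega)
    have h10 := fun j => exists_perm_pow (α := Fin a) (r := r) (c := g j) (by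
      simpa using (Nat.le_div_iff_mul_le hr.out.pos).1 (h8 j))
    choose τ h11 h12 using h10
    let ρ : Perm (Fin b × Fin a) := prodShear π fun j => if π j = j then τ j else 1
    have h13 : ∀ (k : ℕ) j i, (ρ ^ k) (j, i) = ((π ^ k) j, if π j = j then (τ j ^ k) i else i) := by
      intro k j i
      induction k with
      | zero => simp
      | succ k ih =>
        rw [pow_succ', Perm.mul_apply, ih, pow_succ', pow_succ']
        by_cases hj : π j = j
        · simp [ρ, hj, pow_apply_eq_self_of_apply_eq_self hj]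
        · have : π ((π ^ k) j) ≠ (π ^ k) j := mem_support.1 (pow_apply_mem_support.2 (mem_support.2 hj))
          simp [ρ, hj, this]
    have h14 : #ρ.support = m * r := by
      rw [card_eq_sum_card_fiberwise (t := univ) (f := Prod.fst) fun _ _ => mem_univ _,
        ← sum_add_sum_compl π.support, sum_congr rfl (g := fun _ => a) fun j hj => ?_,
        sum_congr (s₁ := π.supportᶜ) rfl (g := fun j => g j * r) fun j hj => ?_, ← sum_mul, h9, sum_const, h5]
      · obtain ⟨c, rfl⟩ := Nat.exists_eq_add_of_le h2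
        simp; ring
      · rw [← h12]
        refine card_bij (fun x _ => x.2) ?_ ?_ fun i hi => ⟨(j, i), ?_, rfl⟩ <;>
          simp +contextual [ρ, Prod.ext_iff, notMem_support.1 (mem_compl.1 hj)]
        · rintro _ i h rfl; simpa [notMem_support.1 (mem_compl.1 hj)] using h
        · exact mem_support.1 hi
      · conv_rhs => rw [← Fintype.card_fin a, ← card_univ]
        refine card_bij (fun x _ => x.2) ?_ ?_ fun i hi => ⟨(j, i), ?_, rfl⟩ <;>
          simp +contextual [ρ, Prod.ext_iff, mem_support.1 hj]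
    let e : Fin b × Fin a ≃ α := Fintype.equivOfCardEq (by simp [hc, mul_comm])
    obtain ⟨c, hc⟩ := isConj_iff.1 (isConj_of_pow (σ := e.permCongrHom ρ) (by
      rw [← map_pow, show ρ ^ r = 1 from Equiv.ext fun x => by simp [h13 r x.1 x.2, h4, h11], map_one])
      h (by
        rw [hm, ← h14]
        exact card_bijective e.symm e.symm.bijective fun x => by simp [eq_symm_apply]))
    refine ⟨fun x => (e.symm (c⁻¹ x)).1, fun j => ?_, π, fun x => by simp [← hc, ρ]⟩
    exact (Nat.card_congr ((c⁻¹.trans e.symm).subtypeEquiv (q := fun y => y.1 = j)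
      fun _ => Iff.rfl)).trans ((Nat.card_congr (Equiv.ofBijective (fun y => y.1.2) ⟨fun y z e =>
        Subtype.ext (Prod.ext (y.2.trans z.2.symm) e), fun i => ⟨⟨(j, i), rfl⟩, rfl⟩⟩)).trans
        (Nat.card_fin a))

omit hr in
theorem rep_iff {a b r : ℕ} (ha : 2 ≤ a) (hb : 2 ≤ b) (hr : 2 ≤ r) (h : r ≤ a * b) :
    (∀ m, 1 ≤ m → m * r ≤ a * b → ∃ t s, b = r * t + s ∧ t * a ≤ m ∧ m ≤ t * a + s * (a / r)) ↔
      (r ≤ a ∧ (a % r = 0 ∨ (b % r = 0 ∧ a % r = 1) ∨ (a % r ≠ 0 ∧ b % r ≠ 0 ∧ (b % r) * (a % r) < r ∧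
        (b < r ∨ (b % r + r) * (a % r) ≤ (b % r) * a + r)))) := by
  have h1 := Nat.div_add_mod a r
  have h2 := Nat.div_add_mod b r
  have h3 := Nat.mod_lt a (show 0 < r by omega)
  have h4 := Nat.mod_lt b (show 0 < r by omega)
  generalize a / r = a', a % r = l, b / r = b', b % r = k at *
  subst h1 h2
  have h5 : ∀ t s, r * b' + k = r * t + s → t ≤ b' := fun t s e =>
    Nat.le_of_lt_succ (Nat.lt_of_mul_lt_mul_left (a := r) (by nlinarith))
  have h6 : (k + r) * l ≤ k * (r * a' + l) + r ↔ l ≤ k * a' + 1 :=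
    ⟨fun h => Nat.le_of_mul_le_mul_left (by nlinarith) (show 0 < r by omega), fun h => by nlinarith⟩
  rw [h6]
  constructor
  · intro H
    have h7 : 1 ≤ a' := by
      obtain ⟨t, s, -, h8, h9⟩ := H 1 le_rfl (by omega)
      obtain rfl : t = 0 := by by_contra; nlinarith [Nat.pos_of_ne_zero this]
      by_contra h; simp [show a' = 0 by omega] at h9
    have h8 : k * l < r := by
      by_contra h8
      obtain ⟨t, s, e, -, h9⟩ := H ((r * b' + k) * a' + b' * l + 1) (by omega) (by nlinarith)
      have := h5 t s e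
      rw [e] at h9
      nlinarith
    have h9 : b' = 0 ∨ l ≤ k * a' + 1 := by
      rcases b' with _ | c
      · exact Or.inl rfl
      refine Or.inr (by_contra fun h9 => ?_)
      obtain ⟨t, s, e, h10, h11⟩ := H ((r * (c + 1) + k) * a' + c * l + 1) (by omega) (by nlinarith)
      rcases (h5 t s e).eq_or_lt with rfl | h12
      · nlinarith
      · rw [e] at h11
        nlinarith [Nat.mul_le_mul_right l (Nat.le_of_lt_succ h12)]
    refine ⟨by nlinarith, ?_⟩
    by_cases hl : l = 0
    · exact Or.inl hl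
    by_cases hk : k = 0
    · subst hk
      exact Or.inr (Or.inl ⟨rfl, by rcases h9 with rfl | h9 <;> omega⟩)
    exact Or.inr (Or.inr ⟨hl, hk, h8, h9.imp_left fun h => by simpa [h] using h4⟩)
  · rintro ⟨-, H⟩ m - hm
    have h8 : k * l < r ∧ (b' = 0 ∨ l ≤ k * a' + 1) := by
      rcases H with rfl | ⟨rfl, rfl⟩ | ⟨-, -, h7, h8⟩
      · exact ⟨by omega, Or.inr (by omega)⟩
      · exact ⟨by omega, Or.inr (by omega)⟩
      · exact ⟨h7, h8.imp_left fun h => by by_contra; nlinarith [Nat.pos_of_ne_zero this]⟩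
    have h9 : m ≤ (r * b' + k) * a' + b' * l :=
      Nat.le_of_lt_succ (Nat.lt_of_mul_lt_mul_right (a := r) (by nlinarith))
    by_cases h10 : b' * (r * a' + l) ≤ m
    · exact ⟨b', k, rfl, h10, by nlinarith⟩
    have h11 := Nat.div_add_mod m (r * a' + l)
    have h12 := Nat.mod_lt m (show 0 < r * a' + l by omega)
    generalize m / (r * a' + l) = t, m % (r * a' + l) = u at *
    obtain ⟨c, rfl⟩ : ∃ c, b' = t + 1 + c := Nat.exists_eq_add_of_le (by by_contra; nlinarith)
    have := h8.2.resolve_left (by omega)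
    exact ⟨t, r * (1 + c) + k, by ring, by nlinarith, by nlinarith [Nat.zero_le (r * c * a')]⟩

end CF.Xs
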