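import Cfsg.Agent.Perm.SylP
import Cfsg.Agent.Perm.Module

/-! Derived length of linear `p`-groups. -/

namespace CF.Xs
open Subgroup Module Representation
open scoped commutatorElement

universe u v

section
variable {K : Type*} [Field K] {G : Type u} [Group G] {V : Type v} [AddCommGroup V] [Module K V]

/-- Irreducibility, stated with subspaces. -/
def Irr (ρ : Representation K G V) : Prop :=
  Nontrivial V ∧ ∀ W : Submodule K V, (∀ g, W ≤ W.comap (ρ g)) → W = ⊥ ∨ W = ⊤

theorem fix_of_irr [Finite G] [NeZero (Nat.card G : K)] [FiniteDimensional K V]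
    (ρ : Representation K G V) {g : G} (h : ∀ (U : Submodule K V) (hU : ∀ g, U ≤ U.comap (ρ g)),
      Irr (ρ.subrepresentation U hU) → ρ.subrepresentation U hU g = 1) : ρ g = 1 := by
  suffices H : ∀ n, ∀ W : Submodule K V, finrank K W = n → (∀ g, W ≤ W.comap (ρ g)) →
      ∀ w ∈ W, ρ g w = w from LinearMap.ext fun v => H _ ⊤ rfl (fun _ => le_top) v trivial
  intro n
  induction n using Nat.strong_induction_on with | _ n ih => ?_
  rintro W rfl hW w hw
  by_cases h0 : W = ⊥
  · subst h0; rw [(Submodule.mem_bot K).1 hw, map_zero]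
  by_cases h1 : Irr (ρ.subrepresentation W hW)
  · exact congrArg Subtype.val (LinearMap.congr_fun (h W hW h1) ⟨w, hw⟩)
  have h2 : ∃ U : Submodule K V, (∀ g, U ≤ U.comap (ρ g)) ∧ U ≠ ⊥ ∧ U < W := by
    by_contra h2
    refine h1 ⟨Submodule.nontrivial_iff_ne_bot.2 h0, fun U hU => or_iff_not_imp_left.2 fun h3 => ?_⟩
    by_contra h4
    refine h2 ⟨U.map W.subtype, ?_, fun h5 => h3 ?_, ?_⟩
    · rintro g _ ⟨u, hu, rfl⟩; exact ⟨_, hU g hu, rfl⟩
    · exact Submodule.map_injective_of_injective W.injective_subtype (h5.trans (by simp))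
    · refine lt_of_le_of_ne (W.map_subtype_le U) fun h5 => h4 ?_
      exact Submodule.map_injective_of_injective W.injective_subtype (h5.trans (by simp))
  obtain ⟨U, hU, h3, h4⟩ := h2
  obtain ⟨C, hC⟩ := exists_isCompl (⟨U, fun g _ hv => hU g hv⟩ : Subrepresentation ρ)
  have h5 : U ⊔ C.toSubmodule = ⊤ := congrArg Subrepresentation.toSubmodule hC.sup_eq_top
  have h6 : U ⊓ C.toSubmodule = ⊥ := congrArg Subrepresentation.toSubmodule hC.inf_eq_bot
  obtain ⟨u, hu, c, hc, rfl⟩ := Submodule.mem_sup.1 (h5 ▸ Submodule.mem_top (x := w))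
  have h7 : W ⊓ C.toSubmodule < W := lt_of_le_of_ne inf_le_left fun h7 =>
    h3 (by rw [← h6]; exact (inf_eq_left.2 (h4.le.trans (inf_eq_left.1 h7))).symm)
  rw [map_add, ih _ (Submodule.finrank_lt_finrank_of_lt h4) U rfl hU u hu,
    ih _ (Submodule.finrank_lt_finrank_of_lt h7) _ rfl
      (fun g v hv => ⟨hW g hv.1, C.apply_mem_toSubmodule g hv.2⟩) c
      ⟨by simpa using W.sub_mem hw (h4.le hu), hc⟩]

theorem Irr.scalar [IsAlgClosed K] [FiniteDimensional K V] {ρ : Representation K G V} (h : Irr ρ)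
    {f : End K V} (hf : ∀ g, ρ g * f = f * ρ g) : ∃ c : K, ∀ v, f v = c • v := by
  have := h.1
  obtain ⟨c, hc⟩ := f.exists_eigenvalue
  refine ⟨c, fun v => End.mem_eigenspace_iff.1 ?_⟩
  rw [(h.2 (f.eigenspace c) fun g v hv => End.mem_eigenspace_iff.2 ?_).resolve_left hc]
  · trivial
  · rw [← End.mul_apply, ← hf, End.mul_apply, End.mem_eigenspace_iff.1 hv, map_smul]

theorem sum_rootMultiplicity_le (P : Polynomial K) (s : Finset K) :
    ∑ μ ∈ s, P.rootMultiplicity μ ≤ P.natDegree := by
  classical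
  refine le_trans ?_ P.card_roots'
  refine le_trans (le_of_eq ?_) (Multiset.card_le_card (Multiset.filter_le (· ∈ s) P.roots))
  rw [← Multiset.sum_count_eq_card (s := s) fun a ha => (Multiset.mem_filter.1 ha).2]
  exact Finset.sum_congr rfl fun μ hμ => by rw [Multiset.count_filter_of_pos hμ, P.count_roots]

theorem mul_le_natDegree (P : Polynomial K) {m d : ℕ} (s : ℕ → K) (hs : Set.InjOn s (Set.Iio m))
    (h : ∀ i, d ≤ P.rootMultiplicity (s i)) : m * d ≤ P.natDegree := by
  classical
  refine le_trans ?_ (sum_rootMultiplicity_le P ((Finset.range m).image s))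
  rw [Finset.sum_image (by simpa using hs)]
  simpa using Finset.card_nsmul_le_sum (Finset.range m) _ d fun i _ => h i

variable {p : ℕ} [hp : Fact p.Prime]

theorem scalar_pow {ρ : Representation K G V} (hG : IsPGroup p G) [Nontrivial V] {z : G} {c : K}
    (h : ∀ v, ρ z v = c • v) : ∃ m, c ^ p ^ m = 1 := by
  obtain ⟨m, hm⟩ := hG z
  obtain ⟨v, hv⟩ := exists_ne (0 : V)
  have h1 : ∀ j : ℕ, ρ (z ^ j) v = c ^ j • v := fun j => by
    induction j with
    | zero => simp
    | succ j ih => rw [pow_succ', map_mul, End.mul_apply, ih, map_smul, h, smul_smul, pow_succ]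
  refine ⟨m, smul_left_injective K hv ?_⟩
  simpa [hm] using (h1 (p ^ m)).symm

theorem dvd_orderOf_of_pow {c : K} {m : ℕ} (h : c ^ p ^ m = 1) (h1 : c ≠ 1) : p ∣ orderOf c := by
  obtain ⟨j, -, hj⟩ := (Nat.dvd_prime_pow hp.out).1 (orderOf_dvd_of_pow_eq_one h)
  rcases j with _ | j
  · exact absurd (orderOf_eq_one_iff.1 hj) h1
  · exact hj ▸ dvd_pow_self p (by omega)

end

theorem derived_le_ker {K : Type*} [Field K] [IsAlgClosed K] {p : ℕ} [hp : Fact p.Prime]
    (hK : (p : K) ≠ 0) (k : ℕ) : ∀ {G : Type u} [Group G] [Finite G] {V : Type v} [AddCommGroup V]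
    [Module K V] [FiniteDimensional K V] (ρ : Representation K G V), IsPGroup p G →
    finrank K V < p ^ k → derivedSeries G k ≤ ρ.ker := by
  induction k with
  | zero =>
    intro G _ _ V _ _ _ ρ _ h g _
    have : Subsingleton V := finrank_zero_iff.1 (by simpa using h)
    exact LinearMap.ext fun v => Subsingleton.elim _ _
  | succ k ih =>
    intro G _ _ V _ _ _ ρ hG h g hg
    obtain ⟨a, ha⟩ := IsPGroup.iff_card.1 hG
    have : NeZero (Nat.card G : K) := ⟨by rw [ha]; push_cast; exact pow_ne_zero _ hK⟩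
    refine fix_of_irr ρ fun U hU hi => ?_
    replace h : finrank K U < p ^ (k + 1) := (Submodule.finrank_le U).trans_lt h
    generalize ρ.subrepresentation U hU = σ at hi
    have := hi.1
    let π := QuotientGroup.mk' σ.ker
    have hπ : ∀ a b, π a = π b → σ a = σ b := fun a b e => by
      obtain ⟨z, hz, rfl⟩ := (QuotientGroup.mk'_eq_mk' _).1 e
      rw [map_mul, show σ z = 1 from hz, mul_one]
    have hQ := hG.to_quotient σ.ker
    have := hQ.isNilpotent
    by_cases h1 : Subgroup.upperCentralSeries (G ⧸ σ.ker) 1 = Subgroup.upperCentralSeries (G ⧸ σ.ker) 2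
    · have h2 := Subgroup.upperCentralSeries.eq_top (by omega) h1
      rw [Subgroup.upperCentralSeries_one] at h2
      refine (?_ : commutator G ≤ σ.ker) (derivedSeries_antitone G (Nat.le_add_left 1 k) hg)
      refine commutator_le.2 fun a _ b _ => (hπ _ 1 ?_).trans σ.map_one
      rw [map_commutatorElement, map_one, commutatorElement_eq_one_iff_mul_comm]
      exact mem_center_iff.1 (h2 ▸ mem_top _) _
    obtain ⟨x, hx, hx'⟩ := SetLike.exists_of_lt (lt_of_le_of_ne (Subgroup.upperCentralSeries_mono _ one_le_two) h1)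
    obtain ⟨x, rfl⟩ := QuotientGroup.mk'_surjective σ.ker x
    have h2 : ∀ y, ⁅π x, y⁆ ∈ center (G ⧸ σ.ker) := fun y =>
      Subgroup.upperCentralSeries_one (G ⧸ σ.ker) ▸ Subgroup.mem_upperCentralSeries_succ_iff.1 hx y
    have h3 : ∀ y, ∃ c : K, ∀ v, σ ⁅x, y⁆ v = c • v := fun y => hi.scalar fun g => by
      rw [← map_mul, ← map_mul]
      exact hπ _ _ (by rw [map_mul, map_mul, map_commutatorElement, mem_center_iff.1 (h2 _)])
    choose c hc using h3
    have h4 : ∀ y μ, ∀ v ∈ End.eigenspace (σ x) μ, σ y v ∈ End.eigenspace (σ x) (c y * μ) := fun y μ v hv => by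
      rw [End.mem_eigenspace_iff] at hv ⊢
      rw [← End.mul_apply, ← map_mul, show x * y = ⁅x, y⁆ * (y * x) by group, map_mul, map_mul,
        End.mul_apply, hc, End.mul_apply, hv, map_smul, smul_smul]
    let N := (centralizer {π x}).comap π
    have h5 : ∀ y, y ∈ N ↔ c y = 1 := fun y => by
      obtain ⟨v, hv⟩ := exists_ne (0 : U)
      rw [mem_comap, mem_centralizer_singleton_iff, eq_comm, ← commutatorElement_eq_one_iff_mul_comm,
        ← map_commutatorElement]
      refine ⟨fun h => smul_left_injective K hv ?_, fun h => (QuotientGroup.eq_one_iff _).2 ?_⟩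
      · simp only [← hc, hπ _ 1 h, map_one, End.one_apply, one_smul]
      · exact LinearMap.ext fun v => by rw [hc, h, one_smul]; rfl
    have h6 : commutator G ≤ N := by
      have h7 : ⁅⁅Subgroup.upperCentralSeries (G ⧸ σ.ker) 2, ⊤⁆, (⊤ : Subgroup (G ⧸ σ.ker))⁆ = ⊥ :=
        commutator_eq_bot_iff_le_centralizer.2 (commutator_le.2 fun a ha b _ => by
          rw [coe_top, centralizer_univ, ← Subgroup.upperCentralSeries_one]
          exact Subgroup.mem_upperCentralSeries_succ_iff.1 ha b)
      have h8 := commutator_eq_bot_iff_le_centralizer.1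
        (commutator_commutator_eq_bot_of_rotate (H₁ := ⊤) (by rwa [commutator_comm ⊤]) h7)
      refine commutator_le.2 fun a _ b _ => mem_comap.2 ?_
      rw [map_commutatorElement]
      exact centralizer_le (Set.singleton_subset_iff.2 hx)
        (h8 (commutator_mem_commutator (mem_top _) (mem_top _)))
    obtain ⟨y, hy⟩ : ∃ y, c y ≠ 1 := by
      by_contra h7
      push Not at h7
      refine hx' (Subgroup.upperCentralSeries_one (G ⧸ σ.ker) ▸ mem_center_iff.2 fun y => ?_)
      obtain ⟨y, rfl⟩ := QuotientGroup.mk'_surjective σ.ker y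
      exact mem_centralizer_singleton_iff.1 ((h5 y).2 (h7 y))
    obtain ⟨m, hm⟩ := scalar_pow hG (hc y)
    have h7 : ∀ μ, finrank K (End.eigenspace (σ x) μ) < p ^ k := fun μ => by
      by_cases hμ : μ = 0
      · rw [hμ, End.eigenspace_zero, LinearMap.ker_eq_bot.2 (σ.apply_bijective x).1, finrank_bot]
        exact pow_pos hp.out.pos _
      have h8 : ∀ i : ℕ, finrank K (End.eigenspace (σ x) μ) ≤ finrank K (End.eigenspace (σ x) (c y ^ i * μ)) := by
        intro i
        induction i with
        | zero => rw [pow_zero, one_mul]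
        | succ i ih =>
          rw [pow_succ', mul_assoc]
          exact ih.trans (LinearMap.finrank_le_finrank_of_injective (f := (σ y).restrict (h4 y _))
            fun a b e => Subtype.ext ((σ.apply_bijective y).1 (congrArg Subtype.val e)))
      have h9 := mul_le_natDegree (σ x).charpoly (m := p) (fun i => c y ^ i * μ)
        (fun i hi j hj e => pow_injOn_Iio_orderOf
          (hi.trans_le (Nat.le_of_dvd (isOfFinOrder_iff_pow_eq_one.2 ⟨_, pow_pos hp.out.pos _, hm⟩).orderOf_pos
            (dvd_orderOf_of_pow hm hy)))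
          (hj.trans_le (Nat.le_of_dvd (isOfFinOrder_iff_pow_eq_one.2 ⟨_, pow_pos hp.out.pos _, hm⟩).orderOf_pos
            (dvd_orderOf_of_pow hm hy))) (mul_right_cancel₀ hμ e))
        fun i => (h8 i).trans ((σ x).finrank_eigenspace_le _)
      rw [LinearMap.charpoly_natDegree] at h9
      exact Nat.lt_of_mul_lt_mul_left (a := p) (by rw [← pow_succ']; omega)
    obtain ⟨g', hg', rfl⟩ := CF.Perm.derivedSeries_succ_le_map h6 k hg
    have h8 : ⨆ μ, End.eigenspace (σ x) μ = ⊤ := by
      obtain ⟨μ, hμ⟩ := End.exists_eigenvalue (σ x)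
      refine (hi.2 _ fun y => iSup_le fun μ v hv => ?_).resolve_left fun h => hμ (iSup_eq_bot.1 h μ)
      exact Submodule.mem_iSup_of_mem _ (h4 y μ v hv)
    refine LinearMap.ext fun v => ?_
    refine (?_ : ⨆ μ, End.eigenspace (σ x) μ ≤ LinearMap.eqLocus _ _) (h8 ▸ Submodule.mem_top)
    refine iSup_le fun μ v hv => ?_
    exact congrArg Subtype.val (LinearMap.congr_fun (ih (subrepresentation (σ.comp N.subtype)
      (End.eigenspace (σ x) μ) fun y v hv => by simpa [(h5 y).1 y.2] using h4 y μ v hv)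
      (hG.to_subgroup N) (h7 μ) hg') ⟨v, hv⟩)

theorem derived_le_ker_of_charP {K : Type*} [Field K] {p : ℕ} [Fact p.Prime] [CharP K p]
    {G : Type*} [Group G] [Finite G] {V : Type*} [AddCommGroup V] [Module K V]
    [FiniteDimensional K V] (ρ : Representation K G V) (hG : IsPGroup p G) {k : ℕ}
    (h : finrank K V ≤ 2 ^ k) : derivedSeries G k ≤ ρ.ker := by
  obtain ⟨W, h0, hW⟩ : ∃ W : ℕ → Submodule K V, W 0 = ⊥ ∧
      ∀ i v, v ∈ W (i + 1) ↔ ∀ g, ρ g v - v ∈ W i :=
    ⟨fun i => Nat.rec ⊥ (fun _ U => ⨅ g, U.comap (ρ g - 1)) i, rfl, fun i v => by simp⟩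
  have h1 : ∀ i g, W i ≤ (W i).comap (ρ g) := fun i => by
    induction i with
    | zero => exact fun g => h0 ▸ bot_le
    | succ i ih =>
      refine fun g v hv => (hW _ _).2 fun y => ?_
      have := ih g ((hW _ _).1 hv (g⁻¹ * y * g))
      rwa [Submodule.mem_comap, map_sub, ← End.mul_apply, ← map_mul, ← mul_assoc, mul_inv_cancel_left,
        map_mul] at this
  have h2 : ∀ i, W i ≤ W (i + 1) := fun i v hv => (hW _ _).2 fun g => sub_mem (h1 i g hv) hv
  have h3 : ∀ i : ℕ, W i = ⊤ ∨ i ≤ finrank K ↥(W i) := fun i => by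
    induction i with
    | zero => exact Or.inr (Nat.zero_le _)
    | succ i ih =>
      by_cases h4 : W i = ⊤
      · exact Or.inl (top_le_iff.1 (h4 ▸ h2 i))
      have := Submodule.Quotient.nontrivial_iff.2 h4
      obtain ⟨v, -, h5, h6⟩ := CF.Perm.exists_fixed_vector hG (ρ.quotient (W i) (h1 i)) ⊤
        (fun _ _ _ => trivial) top_ne_bot
      obtain ⟨v, rfl⟩ := Submodule.Quotient.mk_surjective _ v
      have := Submodule.finrank_lt_finrank_of_lt (lt_of_le_of_ne (h2 i) fun e => h5 <|
        (Submodule.Quotient.mk_eq_zero _).2 (e ▸ (hW _ _).2 fun g => (Submodule.Quotient.eq _).1 (h6 g)))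
      exact Or.inr (by have := ih.resolve_left h4; omega)
  have h4 : ∀ k, ∀ g ∈ derivedSeries G k, ∀ i, ∀ v ∈ W (i + 2 ^ k), ρ g v - v ∈ W i := fun k => by
    induction k with
    | zero => exact fun g _ i v hv => (hW _ _).1 hv g
    | succ k ih =>
      let D : Subgroup G :=
        { carrier := {g | ∀ i, ∀ v ∈ W (i + 2 ^ (k + 1)), ρ g v - v ∈ W i}
          mul_mem' := fun {a b} ha hb i v hv => by
            simpa using add_mem (ha i _ (h1 _ b hv)) (hb i v hv)
          one_mem' := fun i v _ => by simp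
          inv_mem' := fun {a} ha i v hv => by simpa using neg_mem (ha i _ (h1 _ a⁻¹ hv)) }
      refine (commutator_le (H₃ := D)).2 fun a ha b hb i v hv => ?_
      have h5 := h1 _ (b * a)⁻¹ hv
      rw [pow_succ, mul_two, ← add_assoc] at h5
      have h6 := sub_mem (ih a ha i _ (ih b hb _ _ h5)) (ih b hb i _ (ih a ha _ _ h5))
      convert h6 using 1
      rw [show ⁅a, b⁆ = a * (b * (b * a)⁻¹) by group]
      nth_rw 2 [show v = ρ (b * (a * (b * a)⁻¹)) v by simp]
      simp only [map_mul, End.mul_apply, map_sub]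
      abel
  intro g hg
  have h5 : W (2 ^ k) = ⊤ := (h3 _).elim id fun h5 =>
    Submodule.eq_top_of_finrank_eq (le_antisymm (Submodule.finrank_le _) (h.trans h5))
  exact LinearMap.ext fun v => sub_eq_zero.1 (by simpa [h0] using h4 k g hg 0 v (by simp [h5]))

/-- The representation on column vectors after extending scalars. -/
noncomputable def extRep {F : Type*} [Field F] (K : Type*) [Field K] [Algebra F K] {n : ℕ}
    {G : Type*} [Group G] (ρ : G →* GL (Fin n) F) : Representation K G (Fin n → K) :=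
  (Matrix.toLinAlgEquiv' (R := K) (n := Fin n)).toMonoidHom.comp
    ((algebraMap F K).mapMatrix.toMonoidHom.comp ((Units.coeHom _).comp ρ))

theorem extRep_inj {F : Type*} [Field F] (K : Type*) [Field K] [Algebra F K] {n : ℕ}
    {G : Type*} [Group G] {ρ : G →* GL (Fin n) F} (h : Function.Injective ρ) :
    Function.Injective (extRep K ρ) := fun _ _ e =>
  h (Units.ext (Matrix.map_injective (algebraMap F K).injective (Matrix.toLinAlgEquiv'.injective e)))

theorem derived_eq_bot_of_finite {F : Type*} [Field F] [Fintype F] {p : ℕ} [hp : Fact p.Prime]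
    (hpq : ¬ p ∣ Fintype.card F) {n k : ℕ} {G : Type*} [Group G] [Finite G] (hG : IsPGroup p G)
    {ρ : G →* GL (Fin n) F} (hρ : Function.Injective ρ)
    (h : n / orderOf (Fintype.card F : ZMod p) < p ^ k) : derivedSeries G k = ⊥ := by
  let K := AlgebraicClosure F
  have hK : (p : K) ≠ 0 := fun h0 => hpq <| by
    obtain ⟨r, _, m, hr, e⟩ := FiniteField.card' F
    have : CharP K r := charP_of_injective_algebraMap (algebraMap F K).injective r
    rw [e, (Nat.prime_dvd_prime_iff_eq hr hp.out).1 ((CharP.cast_eq_zero_iff K r p).1 h0)]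
    exact dvd_pow_self p m.ne_zero
  obtain ⟨a, ha⟩ := IsPGroup.iff_card.1 hG
  have : NeZero (Nat.card G : K) := ⟨by rw [ha]; push_cast; exact pow_ne_zero _ hK⟩
  refine eq_bot_iff.2 fun g hg => extRep_inj K hρ ((fix_of_irr _ fun U hU hi => ?_).trans (map_one _).symm)
  set σ := (extRep K ρ).subrepresentation U hU with hσ
  have := hi.1
  by_cases h1 : σ.ker = ⊤
  · exact (h1 ▸ mem_top g : g ∈ σ.ker)
  refine derived_le_ker hK k σ hG (lt_of_le_of_lt ?_ h) hg
  have := QuotientGroup.nontrivial_iff.2 h1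
  obtain ⟨⟨z, hz⟩, h2⟩ := @exists_ne _ (hG.to_quotient σ.ker).center_nontrivial 1
  obtain ⟨z, rfl⟩ := QuotientGroup.mk'_surjective σ.ker z
  obtain ⟨c, hc⟩ := hi.scalar (f := σ z) fun g => by
    obtain ⟨w, hw, e⟩ := (QuotientGroup.mk'_eq_mk' _).1
      ((map_mul _ g z).trans ((mem_center_iff.1 hz _).trans (map_mul _ z g).symm))
    rw [← map_mul, ← map_mul, ← e, map_mul _ _ w, show σ w = 1 from hw, mul_one]
  obtain ⟨m, hm⟩ := scalar_pow hG hc
  have h3 : c ≠ 1 := fun h3 => h2 (Subtype.ext ((QuotientGroup.eq_one_iff _).2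
    (LinearMap.ext fun v => by rw [hc, h3, one_smul]; rfl)))
  have h4 : finrank K U ≤ (extRep K ρ z).charpoly.rootMultiplicity c :=
    (Submodule.finrank_mono fun v hv => End.mem_eigenspace_iff.2
      (congrArg Subtype.val (hc ⟨v, hv⟩))).trans (LinearMap.finrank_eigenspace_le _ _)
  have h5 : (extRep K ρ z).charpoly = (ρ z).1.charpoly.map (algebraMap F K) := by
    rw [← Matrix.charpoly_map, ← Matrix.charpoly_toLin']; rfl
  let φ := FiniteField.frobeniusAlgEquivOfAlgebraic F K
  have h6 := mul_le_natDegree (extRep K ρ z).charpoly (m := orderOf (Fintype.card F : ZMod p))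
    (d := finrank K U) (fun i => c ^ Fintype.card F ^ i) (fun i hi j hj e => by
      refine pow_injOn_Iio_orderOf hi hj ?_
      have := ((isOfFinOrder_iff_pow_eq_one.2 ⟨_, pow_pos hp.out.pos _, hm⟩).pow_eq_pow_iff_modEq.1
        e).of_dvd (dvd_orderOf_of_pow hm h3)
      exact_mod_cast (ZMod.natCast_eq_natCast_iff _ _ _).2 this) fun i => by
      induction i with
      | zero => simpa using h4
      | succ i ih =>
        rw [Polynomial.eq_rootMultiplicity_map (f := (φ : K →+* K)) φ.injective, h5,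
          Polynomial.map_map, show (φ : K →+* K).comp (algebraMap F K) = algebraMap F K from
            RingHom.ext φ.commutes, ← h5] at ih
        rwa [pow_succ, pow_mul]
  rw [LinearMap.charpoly_natDegree, finrank_fin_fun] at h6
  have h7 : 0 < orderOf (Fintype.card F : ZMod p) :=
    (isOfFinOrder_iff_pow_eq_one.2 ⟨p - 1, by have := hp.out.two_le; omega,
      ZMod.pow_card_sub_one_eq_one (mt (ZMod.natCast_eq_zero_iff _ _).1 hpq)⟩).orderOf_pos
  exact (Nat.le_div_iff_mul_le h7).2 (by rwa [mul_comm])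

/-- The induced representation of a wreath product. -/
def wrRep {K D V : Type*} [Field K] [Group D] [AddCommGroup V] [Module K V]
    (ρ : Representation K D V) (Q : Type*) [Group Q] : Representation K (D ≀ᵣ Q) (Q → V) where
  toFun w := LinearMap.pi fun x => ρ (w.left x) ∘ₗ LinearMap.proj (w.right⁻¹ * x)
  map_one' := by ext; simp
  map_mul' a b := by ext; simp [mul_assoc]

theorem wrRep_inj {K D V : Type*} [Field K] [Group D] [AddCommGroup V] [Module K V] [Nontrivial V]
    {ρ : Representation K D V} (h : Function.Injective ρ) (Q : Type*) [Group Q] :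
    Function.Injective (wrRep ρ Q) := by
  classical
  refine (injective_iff_map_eq_one _).2 fun w hw => ?_
  have h1 : ∀ (f : Q → V) x, ρ (w.left x) (f (w.right⁻¹ * x)) = f x := fun f x =>
    congrFun (LinearMap.congr_fun hw f) x
  obtain ⟨v, hv⟩ := exists_ne (0 : V)
  refine RegularWreathProduct.ext (funext fun x => h (LinearMap.ext fun v => ?_)) ?_
  · simpa using h1 (fun _ => v) x
  · by_contra h2
    have := h1 (Pi.single 1 v) 1
    rw [Pi.single_eq_of_ne (by simpa using h2), map_zero, Pi.single_eq_same] at this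
    exact hv this.symm

theorem derived_sylow_ne_bot {F : Type*} [Field F] [Fintype F] {p : ℕ} [hp : Fact p.Prime]
    {e n k : ℕ} (he : e ≠ 0) (hd : p ∣ Fintype.card F ^ e - 1) (h : e * p ^ k ≤ n)
    (P : Sylow p (GL (Fin n) F)) : derivedSeries P k ≠ ⊥ := by
  classical
  have hZ : Nat.card (Multiplicative (ZMod p)) = p := by simp
  have key : ∀ k, ∃ (W : Type _) (_ : Group W) (_ : Finite W) (V : Type _) (_ : AddCommGroup V)
      (_ : Module F V) (ρ : Representation F W V), Function.Injective ρ ∧ IsPGroup p W ∧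
      finrank F V = e * p ^ k ∧ derivedSeries W k ≠ ⊥ := fun k => by
    induction k with
    | zero =>
      obtain ⟨g, hg⟩ := exists_prime_orderOf_dvd_card' (G := GL (Fin e) F) p (by
        rw [Matrix.card_GL_field]
        exact hd.trans (Finset.dvd_prod_of_mem (fun i : Fin e => Fintype.card F ^ e - Fintype.card F ^ i.1)
          (Finset.mem_univ (⟨0, by omega⟩ : Fin e))))
      refine ⟨zpowers g, _, inferInstance, Fin e → F, _, _, extRep F (zpowers g).subtype,
        extRep_inj F (subtype_injective _), IsPGroup.of_card (n := 1) (by rw [Nat.card_zpowers, hg, pow_one]),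
        by simp, ?_⟩
      have : Nontrivial (zpowers g) := (nontrivial_iff_ne_bot _).2 (zpowers_ne_bot.2 fun h =>
        hp.out.one_lt.ne (by simpa [h] using hg))
      simp
    | succ k ih =>
      obtain ⟨W, _, _, V, _, _, ρ, h1, h2, h3, h4⟩ := ih
      have h5 : 0 < finrank F V := h3 ▸ Nat.mul_pos (by omega) (pow_pos hp.out.pos _)
      have := Module.finite_of_finrank_pos h5
      have := Module.nontrivial_of_finrank_pos h5
      obtain ⟨a, ha⟩ := IsPGroup.iff_card.1 h2
      refine ⟨W ≀ᵣ Multiplicative (ZMod p), _, inferInstance, Multiplicative (ZMod p) → V, _, _,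
        wrRep ρ _, wrRep_inj h1 _, IsPGroup.of_card (n := a * p + 1) (by
          rw [RegularWreathProduct.card, ha, hZ]; ring), ?_, CF.Perm.derivedSeries_wreath_ne_bot h4⟩
      rw [finrank_pi_fintype]
      simp [h3]; ring
  obtain ⟨W, _, _, V, _, _, ρ, h1, h2, h3, h4⟩ := key k
  have := Module.finite_of_finrank_pos (h3 ▸ Nat.mul_pos (by omega) (pow_pos hp.out.pos _) : 0 < finrank F V)
  let b := finBasisOfFinrankEq F (V × (Fin (n - e * p ^ k) → F)) (n := n) (by simp [h3]; omega)
  obtain ⟨g, hg⟩ := CF.Perm.exists_injective_sylow h2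
    (f := ((LinearMap.toMatrixAlgEquiv b).toMonoidHom.comp (ρ.prod (trivial F W _))).toHomUnits)
    (fun a c e => h1 (LinearMap.ext fun v => congrArg Prod.fst (LinearMap.congr_fun
      ((LinearMap.toMatrixAlgEquiv b).injective (congrArg Units.val e)) (v, 0)))) P
  exact fun h5 => h4 ((Subgroup.map_eq_bot_iff_of_injective _ hg).1
    (eq_bot_iff.2 (h5 ▸ map_derivedSeries_le_derivedSeries g k)))

end CF.Xs
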