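import Cfsg.Agent.Classical.SymSyl2
import Cfsg.Agent.Classical.Klein
import Cfsg.Prelude.Def_TwoFusion

/-! Direct decompositions of Sylow two-subgroups of alternating groups. -/

namespace CF.Xs
open Subgroup Equiv Equiv.Perm MulAction CF.Classical Cfsg

/-- `P` is a direct product of two nontrivial subgroups. -/
def Dec {G : Type*} [Group G] (P : Subgroup G) : Prop :=
  ∃ A B : Subgroup G, A ≠ ⊥ ∧ B ≠ ⊥ ∧ IsInternalDirectProduct A B P

theorem dec_map_iff {G H : Type*} [Group G] [Group H] {f : G →* H} (hf : Function.Injective f)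
    {P : Subgroup G} : Dec (P.map f) ↔ Dec P := by
  constructor
  · rintro ⟨A, B, h1, h2, h3, h4, h5, h6, h7⟩
    obtain ⟨A, rfl⟩ : ∃ A' : Subgroup G, A'.map f = A :=
      ⟨_, map_comap_eq_self (h3.trans (map_le_range f P))⟩
    obtain ⟨B, rfl⟩ : ∃ B' : Subgroup G, B'.map f = B :=
      ⟨_, map_comap_eq_self (h4.trans (map_le_range f P))⟩
    refine ⟨A, B, fun h => h1 (by simp [h]), fun h => h2 (by simp [h]),
      (map_le_map_iff_of_injective hf).1 h3, (map_le_map_iff_of_injective hf).1 h4,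
      fun a ha b hb => hf ?_, map_injective hf ?_, map_injective hf ?_⟩
    · rw [map_mul, map_mul]; exact h5 _ ⟨a, ha, rfl⟩ _ ⟨b, hb, rfl⟩
    · rw [Subgroup.map_inf _ _ _ hf, h6, Subgroup.map_bot]
    · rw [Subgroup.map_sup, h7]
  · rintro ⟨A, B, h1, h2, h3, h4, h5, h6, h7⟩
    refine ⟨A.map f, B.map f, fun h => h1 ((map_eq_bot_iff_of_injective _ hf).1 h),
      fun h => h2 ((map_eq_bot_iff_of_injective _ hf).1 h), map_mono h3, map_mono h4, ?_, ?_, ?_⟩
    · rintro _ ⟨a, ha, rfl⟩ _ ⟨b, hb, rfl⟩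
      rw [← map_mul, h5 a ha b hb, map_mul]
    · rw [← Subgroup.map_inf _ _ _ hf, h6, Subgroup.map_bot]
    · rw [← Subgroup.map_sup, h7]

section idp
variable {G : Type*} [Group G] {A B P : Subgroup G} (h : IsInternalDirectProduct A B P)
include h

theorem idp_symm : IsInternalDirectProduct B A P :=
  ⟨h.2.1, h.1, fun a ha b hb => (h.2.2.1 b hb a ha).symm, inf_comm A B ▸ h.2.2.2.1,
    sup_comm A B ▸ h.2.2.2.2⟩

theorem idp_mem {g : G} (hg : g ∈ P) : ∃ a ∈ A, ∃ b ∈ B, a * b = g := by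
  have : B ≤ normalizer (A : Set G) := (le_centralizer_iff.1 fun a ha b hb =>
    (h.2.2.1 a ha b hb).symm).trans (centralizer_le_normalizer _)
  rw [← h.2.2.2.2, ← SetLike.mem_coe, coe_mul_of_right_le_normalizer_left A B this] at hg
  exact Set.mem_mul.1 hg

theorem idp_conj {g a : G} (hg : g ∈ P) (ha : a ∈ A) : g * a * g⁻¹ ∈ A := by
  obtain ⟨c, hc, b, hb, rfl⟩ := idp_mem h hg
  rw [mul_assoc c, ← h.2.2.1 a ha b hb, mul_inv_rev, ← mul_assoc, ← mul_assoc,
    mul_inv_cancel_right]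
  exact A.mul_mem (A.mul_mem hc ha) (A.inv_mem hc)

theorem idp_central [Finite G] (hP : IsPGroup 2 P) (h1 : A ≠ ⊥) :
    ∃ c ∈ A, c ≠ 1 ∧ ∀ g ∈ P, g * c = c * g := by
  have := (nontrivial_iff_ne_bot A).2 h1
  have := (hP.to_le h.1).center_nontrivial
  obtain ⟨⟨c, hc⟩, hc1⟩ := exists_ne (1 : (center A))
  refine ⟨c, c.2, fun e => hc1 (Subtype.ext (Subtype.ext e)), fun g hg => ?_⟩
  obtain ⟨a, ha, b, hb, rfl⟩ := idp_mem h hg
  rw [mul_assoc, ← h.2.2.1 c c.2 b hb, ← mul_assoc,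
    show a * c = c * a from congrArg Subtype.val (mem_center_iff.1 hc ⟨a, ha⟩), mul_assoc]

end idp

variable {Ω : Type*} [Fintype Ω] [DecidableEq Ω]

section res
variable (S : Sylow 2 (Perm Ω)) (U : Set Ω) (hU : ∀ s ∈ S, ∀ a, s a ∈ U ↔ a ∈ U)

open scoped _root_.Classical in
/-- Restriction to an invariant subset. -/
noncomputable def res : S →* Perm Ω :=
  MonoidHom.mk' (fun s => ofSubtype (s.1.subtypePerm (hU s s.2))) fun _ _ => by
    rw [← map_mul]; rfl

variable {S U}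

theorem res_in (s : S) {a : Ω} (ha : a ∈ U) : res S U hU s a = s.1 a := by
  classical exact ofSubtype_apply_of_mem _ ha

theorem res_out (s : S) {a : Ω} (ha : a ∉ U) : res S U hU s a = a := by
  classical exact ofSubtype_apply_of_not_mem _ ha

theorem res_mem (s : S) : res S U hU s ∈ S := by
  refine le_sylow_of_le_normalizer S (S.2.of_surjective _ (res S U hU).rangeRestrict_surjective)
    (fun g hg => mem_normalizer_fintype ?_) ⟨s, rfl⟩
  rintro _ ⟨t, rfl⟩
  refine ⟨⟨g, hg⟩ * t * ⟨g, hg⟩⁻¹, Equiv.ext fun a => ?_⟩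
  have h1 := hU _ (S.1.inv_mem hg) a
  by_cases ha : a ∈ U
  · rw [res_in hU _ ha, Perm.mul_apply, Perm.mul_apply, res_in hU _ (h1.2 ha)]; rfl
  · rw [res_out hU _ ha, Perm.mul_apply, Perm.mul_apply, res_out hU _ (mt h1.1 ha)]; simp

end res

theorem orbit_inv (S : Sylow 2 (Perm Ω)) (a : Ω) :
    ∀ s ∈ S, ∀ b, s b ∈ orbit (S : Subgroup (Perm Ω)) a ↔ b ∈ orbit (S : Subgroup (Perm Ω)) a :=
  fun s hs b => smul_mem_orbit_smul_iff_aux (⟨s, hs⟩ : (S : Subgroup (Perm Ω))) a b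

/-- the block of `a` is moved by `s` -/
def Mv (z s : Perm Ω) (a : Ω) : Prop := s a ≠ a ∧ s a ≠ z a

/-- points whose block is moved by `A` -/
def Big (z : Perm Ω) (A : Subgroup (Perm Ω)) : Set Ω := {a | ∃ s ∈ A, Mv z s a}

variable {S : Sylow 2 (Perm Ω)} {z : Perm Ω} (Z : Pairing (S : Subgroup (Perm Ω)) z)
include Z

theorem z_mem : z ∈ S := Z.mem z fun _ => Or.inr rfl

theorem z_orbit {a b : Ω} : z b ∈ orbit (S : Subgroup (Perm Ω)) a ↔ b ∈ orbit (S : Subgroup (Perm Ω)) a :=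
  orbit_inv S a z (z_mem Z) b

theorem conj_tau {s : Perm Ω} (hs : s ∈ S) (a : Ω) :
    s * swap a (z a) * s⁻¹ = swap (s a) (z (s a)) := by rw [conj_swap, Z.comm s hs]

theorem Mv.ne {s : Perm Ω} (hs : s ∈ S) {a : Ω} (h : Mv z s a) : z a ≠ a := fun e =>
  h.1 (Z.apply_fixed (Z.comm s hs) e)

theorem mv_conj {s g : Perm Ω} (hg : g ∈ S) {a : Ω} : Mv z (g * s * g⁻¹) (g a) ↔ Mv z s a := by
  simp [Mv, ← Z.comm g hg]

theorem mv_z {s : Perm Ω} (hs : s ∈ S) {a : Ω} : Mv z s (z a) ↔ Mv z s a := by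
  simp [Mv, Z.comm s hs]

theorem exists_even {s : Perm Ω} (hs : s ∈ S) {x : Ω} (hx : z x ≠ x) :
    ∃ s' ∈ (S : Subgroup (Perm Ω)) ⊓ alternatingGroup Ω, s' = s ∨ s' = s * swap x (z x) := by
  rcases Int.units_eq_one_or (sign s) with h | h
  · exact ⟨s, ⟨hs, h⟩, Or.inl rfl⟩
  · exact ⟨_, ⟨S.1.mul_mem hs (Z.swap_mem x), by
      change sign _ = 1
      rw [map_mul, h, sign_swap hx.symm]; simp⟩, Or.inr rfl⟩

theorem swap_tau (x a : Ω) : swap x (z x) a = a ∨ swap x (z x) a = z a := by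
  rw [swap_apply_def]
  split_ifs with h1 h2
  · exact Or.inr (by rw [h1])
  · exact Or.inr (by rw [h2, Z.sq])
  · exact Or.inl rfl

theorem exists_even' {s : Perm Ω} (hs : s ∈ S) {x : Ω} (hx : z x ≠ x) :
    ∃ s' ∈ (S : Subgroup (Perm Ω)) ⊓ alternatingGroup Ω, ∀ a, s' a = s a ∨ s' a = z (s a) := by
  obtain ⟨s', h1, rfl | rfl⟩ := exists_even Z hs hx
  · exact ⟨_, h1, fun _ => Or.inl rfl⟩
  · refine ⟨_, h1, fun a => ?_⟩
    rcases swap_tau Z x a with h | h <;> simp [h, Z.comm s hs]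

theorem big_inv {A : Subgroup (Perm Ω)} (hA : A ≤ S)
    (h : ∀ g ∈ (S : Subgroup (Perm Ω)) ⊓ alternatingGroup Ω, ∀ a ∈ A, g * a * g⁻¹ ∈ A) :
    ∀ s ∈ S, ∀ a, s a ∈ Big z A ↔ a ∈ Big z A := by
  have key : ∀ s ∈ S, ∀ a ∈ Big z A, s a ∈ Big z A := fun s hs a ⟨t, ht, h1⟩ => by
    obtain ⟨g, hg, h2⟩ := exists_even' Z hs (h1.ne Z (hA ht))
    have h3 := (mv_conj Z hg.1).2 h1
    refine ⟨_, h g hg t ht, ?_⟩
    rcases h2 a with h2 | h2 <;> rw [h2] at h3
    · exact h3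
    · exact (mv_z Z (hA (h g hg t ht))).1 h3
  exact fun s hs a => ⟨fun h => by simpa using key _ (S.1.inv_mem hs) _ h, key s hs a⟩

theorem big_inv' : ∀ s ∈ S, ∀ a, s a ∈ Big z S ↔ a ∈ Big z S :=
  big_inv Z le_rfl fun _ hg _ ha => S.1.mul_mem (S.1.mul_mem hg.1 ha) (S.1.inv_mem hg.1)

theorem small_two {a b : Ω} (ha : a ∉ Big z S) (hb : b ∉ Big z S) (ha' : z a ≠ a) (hb' : z b ≠ b) :
    b = a ∨ b = z a := by
  by_contra hc
  push Not at hc
  obtain ⟨h1, h2⟩ := hc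
  have h3 : z b ≠ a := fun h => h2 (Z.eq_iff.1 h)
  have h4 : z b ≠ z a := fun h => h1 (z.injective h)
  have c1 : Commute (swap a b) (swap (z a) (z b)) :=
    commute_swap_of_ne ha'.symm h3.symm h2 hb'.symm
  have hm : swap a b * swap (z a) (z b) ∈ S := by
    refine mem_sylow_of_commute_conj S (by
      rw [c1.symm.mul_mul_mul_comm, swap_mul_self, swap_mul_self, one_mul]) fun s hs => ?_
    rw [← conj_mul, conj_swap, conj_swap, Z.comm s hs, Z.comm s hs]
    have e1 : s a = a ∨ s a = z a := by by_contra h; exact ha ⟨s, hs, not_or.1 h⟩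
    have e2 : s b = b ∨ s b = z b := by by_contra h; exact hb ⟨s, hs, not_or.1 h⟩
    have c2 : Commute (swap a (z a)) (swap b (z b)) :=
      commute_swap_of_ne h1.symm h3.symm h2.symm h4.symm
    set t := swap a b * swap (z a) (z b) with ht
    have t1 : t * swap a (z a) * t⁻¹ = swap b (z b) := by
      rw [conj_swap]; simp [ht, swap_apply_of_ne_of_ne, *, Ne.symm]
    have t2 : t * swap b (z b) * t⁻¹ = swap a (z a) := by
      rw [conj_swap]; simp [ht, swap_apply_of_ne_of_ne, *, Ne.symm]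
    have c3 : Commute (swap a (z a) * swap b (z b)) t := by
      rw [Commute, SemiconjBy, eq_comm, ← mul_inv_eq_iff_eq_mul, ← conj_mul, t1, t2, c2.eq]
    have k1 : swap (z a) b * swap a (z b) = swap a (z a) * swap b (z b) * t := by
      rw [← t1, show swap a (z a) * (t * swap a (z a) * t⁻¹) * t = swap a (z a) * t * (swap a (z a))⁻¹
        by simp [mul_assoc], ht, ← conj_mul, conj_swap, conj_swap]
      simp [swap_apply_of_ne_of_ne, *, Ne.symm]
    have k2 : swap a (z b) * swap (z a) b = swap a (z a) * swap b (z b) * t := by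
      rw [← k1]; exact (commute_swap_of_ne ha'.symm h1.symm h4 hb').eq
    rcases e1 with e1 | e1 <;> rcases e2 with e2 | e2 <;> simp only [e1, e2, Z.sq]
    · exact Commute.refl _
    · rw [k2]; exact c3.mul_left (Commute.refl _)
    · rw [k1]; exact c3.mul_left (Commute.refl _)
    · rw [c1.symm.eq]; exact Commute.refl _
  refine ha ⟨_, hm, ?_, ?_⟩ <;>
    simp [swap_apply_of_ne_of_ne ha'.symm h3.symm, h1, h2]

theorem eq_one_of_small {e : Perm Ω} (he : e ∈ (S : Subgroup (Perm Ω)) ⊓ alternatingGroup Ω)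
    (h : ∀ a ∈ Big z S, e a = a) : e = 1 := by
  by_contra h1
  obtain ⟨a, ha⟩ : ∃ a, e a ≠ a := by
    by_contra h2; push Not at h2; exact h1 (Equiv.ext h2)
  have hs : ∀ a, e a ≠ a → a ∉ Big z S ∧ e a = z a := fun a ha =>
    ⟨fun h2 => ha (h a h2), by_contra fun h2 => ha (h a ⟨e, he.1, ha, h2⟩)⟩
  have hza : z a ≠ a := (hs a ha).2 ▸ ha
  have : e = swap a (z a) := Equiv.ext fun b => by
    by_cases hb : e b = b
    · rw [hb, swap_apply_of_ne_of_ne (fun h : b = a => ha (h ▸ hb)) fun h => ha ?_]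
      rw [h, Z.comm e he.1] at hb
      exact z.injective hb
    · rcases small_two Z (hs a ha).1 (hs b hb).1 hza ((hs b hb).2 ▸ hb) with rfl | rfl
      · simp [(hs b hb).2]
      · simp [(hs _ hb).2, Z.sq]
  have h2 : sign e = 1 := he.2
  rw [this, sign_swap hza.symm] at h2
  exact absurd h2 (by decide)

theorem tau_mem {a b : Ω} (ha : z a ≠ a) (hb : z b ≠ b) :
    swap a (z a) * swap b (z b) ∈ (S : Subgroup (Perm Ω)) ⊓ alternatingGroup Ω :=
  ⟨S.1.mul_mem (Z.swap_mem a) (Z.swap_mem b), sign_swap_mul_swap ha.symm hb.symm⟩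

theorem fix_iff {e g : Perm Ω} (he : e ∈ S) (h : g * e = e * g) {a b : Ω}
    (hb : g a = b ∨ g a = z b) : e a = a ↔ e b = b := by
  have h1 : e (g a) = g a ↔ e a = a := by
    rw [← Perm.mul_apply, ← h, Perm.mul_apply, g.injective.eq_iff]
  rcases hb with hb | hb <;> rw [← h1, hb]
  rw [Z.comm e he, z.injective.eq_iff]

theorem not_dec_of_one (h6 : 6 ≤ Fintype.card Ω)
    (h : ∀ a ∈ Big z S, ∀ b ∈ Big z S, b ∈ orbit (S : Subgroup (Perm Ω)) a) :
    ¬ Dec ((S : Subgroup (Perm Ω)) ⊓ alternatingGroup Ω) := by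
  rintro ⟨A, B, hA, hB, hd⟩
  have key : ∀ c ∈ (S : Subgroup (Perm Ω)) ⊓ alternatingGroup Ω, c ≠ 1 →
      (∀ g ∈ (S : Subgroup (Perm Ω)) ⊓ alternatingGroup Ω, g * c = c * g) →
      ∀ a ∈ Big z S, c a = z a := fun c hc hc1 hcc => by
    have h1 : ∀ a, z a ≠ a → c a = a ∨ c a = z a := fun a ha => by
      have h2 : ∀ b, z b ≠ b → b ∉ ({a, z a} : Finset Ω) → c a ∈ ({a, z a, b, z b} : Finset Ω) := by
        intro b hb hb'
        simp only [Finset.mem_insert, Finset.mem_singleton, not_or] at hb' ⊢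
        by_contra h3
        push Not at h3
        have := congrArg (· a) (hcc _ (tau_mem Z ha hb))
        simp only [Perm.mul_apply] at this
        rw [swap_apply_of_ne_of_ne h3.2.2.1 h3.2.2.2, swap_apply_of_ne_of_ne h3.1 h3.2.1,
          swap_apply_of_ne_of_ne (Ne.symm hb'.1) (fun h => hb'.2 (Z.eq_iff.1 h.symm)),
          swap_apply_left] at this
        exact ha (c.injective this).symm
      obtain ⟨b, hb, hb'⟩ := Z.exists_moved {a, z a} (by have := card_pair_le a (z a); omega)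
      obtain ⟨d, hd, hd'⟩ := Z.exists_moved {a, z a, b, z b}
        (by have := card_four_le a (z a) b (z b); omega)
      have h3 := h2 b hb' hb
      have h4 := h2 d hd' (by simp at hd ⊢; tauto)
      simp only [Finset.mem_insert, Finset.mem_singleton, not_or] at hd h3 h4
      by_contra h5
      push Not at h5
      rcases (h3.resolve_left h5.1).resolve_left h5.2 with h3 | h3 <;>
        rcases (h4.resolve_left h5.1).resolve_left h5.2 with h4 | h4
      · exact hd.2.2.1 (h4.symm.trans h3)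
      · exact hd.2.2.2 (Z.eq_iff.1 (h4.symm.trans h3))
      · exact hd.2.2.2 (h4.symm.trans h3)
      · exact hd.2.2.1 (z.injective (h4.symm.trans h3))
    intro a ⟨s, hs, ha⟩
    refine (h1 a (ha.ne Z hs)).resolve_left fun h2 => hc1 (eq_one_of_small Z hc fun b hb => ?_)
    obtain ⟨t, rfl⟩ := h a ⟨s, hs, ha⟩ b hb
    obtain ⟨g, hg, h3⟩ := exists_even' Z t.2 (ha.ne Z hs)
    exact (fix_iff Z hc.1 (hcc g hg) (h3 a)).1 h2
  have hP : IsPGroup 2 ((S : Subgroup (Perm Ω)) ⊓ alternatingGroup Ω :) := S.2.to_le inf_le_left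
  obtain ⟨c, hc, hc1, h1⟩ := idp_central hd hP hA
  obtain ⟨d, hd', hd1, h2⟩ := idp_central (idp_symm hd) hP hB
  have : c⁻¹ * d = 1 := eq_one_of_small Z (mul_mem (inv_mem (hd.1 hc)) (hd.2.1 hd')) fun a ha => by
    rw [Perm.mul_apply, key d (hd.2.1 hd') hd1 h2 a ha, ← key c (hd.1 hc) hc1 h1 a ha]; simp
  exact hc1 (mem_bot.1 (hd.2.2.2.1 ▸ ⟨hc, (inv_mul_eq_one.1 this) ▸ hd'⟩))

theorem four_dvd_orbit {a : Ω} (ha : a ∈ Big z S) : 4 ∣ (orbit (S : Subgroup (Perm Ω)) a).ncard := by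
  obtain ⟨k, hk⟩ := exists_ncard_orbit_eq_pow S.2 a
  obtain ⟨s, hs, h⟩ := ha
  have := (Set.two_lt_ncard (Set.toFinite _)).2 ⟨a, mem_orbit_self a, z a,
    (z_orbit Z).2 (mem_orbit_self a), s a, ⟨⟨s, hs⟩, rfl⟩, (h.ne Z hs).symm, h.1.symm, h.2.symm⟩
  rw [hk] at this ⊢
  exact pow_dvd_pow 2 (show 2 ≤ k from (Nat.pow_lt_pow_iff_right (a := 2) (n := 1) (by omega)).1 this)

theorem mem_of_four {H : Subgroup (Perm Ω)} (hH : ∀ a, z a ≠ a →
      ∀ b ∈ orbit (S : Subgroup (Perm Ω)) a, swap a (z a) * swap b (z b) ∈ H) (n : ℕ) :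
    ∀ e : Perm Ω, e.support.card = n → (∀ a, e a = a ∨ e a = z a) →
      (∀ a, 4 ∣ (e.support ∩ orbit (S : Subgroup (Perm Ω)) a : Set Ω).ncard) → e ∈ H := by
  induction n using Nat.strong_induction_on with
  | _ n ih =>
  intro e hn he h4
  have heS := Z.mem e he
  by_cases h1 : e = 1
  · exact h1 ▸ H.one_mem
  obtain ⟨a, ha⟩ : ∃ a, e a ≠ a := by
    by_contra h2; push Not at h2; exact h1 (Equiv.ext h2)
  have hm : ∀ a, e a ≠ a → e a = z a ∧ z a ≠ a ∧ e (z a) = a := fun a ha =>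
    have h := (he a).resolve_left ha
    ⟨h, h ▸ ha, by rw [Z.comm e heS, h, Z.sq]⟩
  obtain ⟨b, hb, hb'⟩ : ∃ b ∈ (e.support ∩ orbit (S : Subgroup (Perm Ω)) a : Set Ω),
      b ∉ ({a, z a} : Set Ω) := Set.exists_mem_notMem_of_ncard_lt_ncard (by
    have := Nat.le_of_dvd ((Set.ncard_pos (Set.toFinite _)).2
      ⟨a, Set.mem_inter (by simpa using ha) (mem_orbit_self a)⟩) (h4 a)
    have := Set.ncard_pair (hm a ha).2.1.symm
    omega)
  simp only [Set.mem_inter_iff, Finset.mem_coe, mem_support, Set.mem_insert_iff,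
    Set.mem_singleton_iff, not_or] at hb hb'
  obtain ⟨ea, za, eza⟩ := hm a ha
  obtain ⟨eb, zb, ezb⟩ := hm b hb.1
  have h3 : z b ≠ a := fun h => hb'.2 (Z.eq_iff.1 h)
  have h5 : z b ≠ z a := fun h => hb'.1 (z.injective h)
  set F : Finset Ω := {a, z a, b, z b} with hF
  have hFc : F.card = 4 := by
    rw [hF, Finset.card_insert_of_notMem (by simp [za.symm, hb'.1, h3, Ne.symm]),
      Finset.card_insert_of_notMem (by simp [hb'.2, h5, Ne.symm]), Finset.card_pair zb.symm]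
  set e' := e * (swap a (z a) * swap b (z b)) with he'
  have hin : ∀ c ∈ F, e' c = c := fun c hc => by
    simp only [hF, Finset.mem_insert, Finset.mem_singleton] at hc
    rcases hc with rfl | rfl | rfl | rfl <;>
      simp [he', swap_apply_of_ne_of_ne, Z.sq, *, Ne.symm]
  have hout : ∀ c ∉ F, e' c = e c := fun c hc => by
    simp only [hF, Finset.mem_insert, Finset.mem_singleton, not_or] at hc
    simp [he', swap_apply_of_ne_of_ne, hc]
  have hsub : F ⊆ e.support := fun c hc => by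
    simp only [hF, Finset.mem_insert, Finset.mem_singleton] at hc
    rcases hc with rfl | rfl | rfl | rfl <;> simp [*, Ne.symm]
  have hs : e'.support = e.support \ F := Finset.ext fun c => by
    by_cases hc : c ∈ F
    · simp [hc, hin c hc]
    · simp [hc, hout c hc]
  have hFo : ∀ c ∈ F, c ∈ orbit (S : Subgroup (Perm Ω)) a := fun c hc => by
    simp only [hF, Finset.mem_insert, Finset.mem_singleton] at hc
    rcases hc with rfl | rfl | rfl | rfl <;> simp [z_orbit Z, hb.2]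
  refine (H.mul_mem_cancel_right (hH a za b hb.2)).1 (ih e'.support.card ?_ e' rfl (fun c => ?_)
    fun c => ?_)
  · rw [hs, Finset.card_sdiff_of_subset hsub]
    have := Finset.card_le_card hsub
    omega
  · by_cases hc : c ∈ F
    · exact Or.inl (hin c hc)
    · rw [hout c hc]; exact he c
  · rw [hs, Finset.coe_sdiff, show ∀ X Y W : Set Ω, (X \ Y) ∩ W = (X ∩ W) \ Y from
      fun X Y W => by ext; simp; tauto]
    by_cases hc : a ∈ orbit (S : Subgroup (Perm Ω)) c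
    · rw [Set.ncard_diff (s := (F : Set Ω)) (fun d hd => Set.mem_inter (hsub hd)
          ((orbit_eq_iff.2 hc) ▸ hFo d hd)),
        Set.ncard_coe_finset, hFc]
      exact Nat.dvd_sub (h4 c) dvd_rfl
    · rw [Disjoint.sdiff_eq_left (Set.disjoint_left.2 fun d hd hd' => hc ?_)]
      · exact h4 c
      · rw [← orbit_eq_iff.2 hd.2]; exact mem_orbit_symm.1 (hFo d hd')

theorem mem_of_inv {H : Subgroup (Perm Ω)} (hH : ∀ a, z a ≠ a →
      ∀ b ∈ orbit (S : Subgroup (Perm Ω)) a, swap a (z a) * swap b (z b) ∈ H) {e : Perm Ω}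
    (he : ∀ a, e a = a ∨ e a = z a) (h0 : ∀ a, z a ≠ a → a ∈ Big z S)
    (h : ∀ s ∈ S, ∀ a, e a ≠ a → e (s a) ≠ s a) : e ∈ H := by
  refine mem_of_four Z hH _ e rfl he fun a => ?_
  rcases (e.support ∩ orbit (S : Subgroup (Perm Ω)) a : Set Ω).eq_empty_or_nonempty with
    h1 | ⟨b, hb, hb'⟩
  · simp [h1]
  · replace hb : e b ≠ b := by simpa using hb
    rw [← orbit_eq_iff.2 hb', Set.inter_eq_right.2]
    · exact four_dvd_orbit Z (h0 b ((he b).resolve_left hb ▸ hb))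
    · rintro _ ⟨s, rfl⟩
      exact mem_support.2 (h s s.2 b hb)

end CF.Xs
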